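import Cfsg.Agent.Helper55.N9Defs

/-!
CALL S4409 (helper55), piece C2d (helper87): a special 2-group with centre of order 2 does not
have order 16.
-/

set_option autoImplicit false

namespace Cfsg.Agent.Helper87.N9

open Subgroup Cfsg.Agent.Helper55.N9

variable {G : Type*} [Group G] [Finite G]

omit [Finite G] in
/-- if `g` commutes with neither `a` nor `b` (commutators in a central subgroup of order 2),
then `g` commutes with `b * a` -/
theorem c2d_comm_mul (X Z : Subgroup G) (hZc : ∀ u ∈ Z, ∀ d ∈ X, u * d = d * u)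
    (hZ2 : ∀ u ∈ Z, ∀ v ∈ Z, u ≠ 1 → v ≠ 1 → u = v) (hZsq : ∀ u ∈ Z, u ^ 2 = 1)
    (hcZ : ∀ g ∈ X, ∀ d ∈ X, g * d * g⁻¹ * d⁻¹ ∈ Z) {g a b : G} (hg : g ∈ X) (ha : a ∈ X)
    (hb : b ∈ X) (hga : g * a ≠ a * g) (hgb : g * b ≠ b * g) : g * (b * a) = b * a * g := by
  have h1 := hcZ g hg a ha
  have h2 := hcZ g hg b hb
  have h1' : g * a * g⁻¹ * a⁻¹ ≠ 1 := by
    intro e
    apply hga
    calc g * a = (g * a * g⁻¹ * a⁻¹) * (a * g) := by group
      _ = a * g := by rw [e, one_mul]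
  have h2' : g * b * g⁻¹ * b⁻¹ ≠ 1 := by
    intro e
    apply hgb
    calc g * b = (g * b * g⁻¹ * b⁻¹) * (b * g) := by group
      _ = b * g := by rw [e, one_mul]
  have e1 := hZ2 _ h1 _ h2 h1' h2'
  have e2 := hZsq _ h2
  have e3 : b * (g * b * g⁻¹ * b⁻¹) = (g * b * g⁻¹ * b⁻¹) * b := (hZc _ h2 b hb).symm
  have e4 : g * (b * a) * g⁻¹ * (b * a)⁻¹ = 1 := by
    calc g * (b * a) * g⁻¹ * (b * a)⁻¹
        = (g * b * g⁻¹ * b⁻¹) * (b * (g * a * g⁻¹ * a⁻¹)) * b⁻¹ := by group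
      _ = (g * b * g⁻¹ * b⁻¹) * (b * (g * b * g⁻¹ * b⁻¹)) * b⁻¹ := by rw [e1]
      _ = (g * b * g⁻¹ * b⁻¹) * ((g * b * g⁻¹ * b⁻¹) * b) * b⁻¹ := by rw [e3]
      _ = (g * b * g⁻¹ * b⁻¹) ^ 2 := by rw [pow_two]; group
      _ = 1 := e2
  calc g * (b * a) = (g * (b * a) * g⁻¹ * (b * a)⁻¹) * ((b * a) * g) := by group
    _ = b * a * g := by rw [e4, one_mul]

omit [Finite G] in
theorem c2d_comm_of_mul {d t w : G} (h1 : (d * t) * w = w * (d * t)) (h2 : t * w = w * t) :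
    d * w = w * d := by
  have h3 : d * w * t = w * d * t := by
    calc d * w * t = d * (w * t) := by group
      _ = d * (t * w) := by rw [h2]
      _ = (d * t) * w := by group
      _ = w * (d * t) := h1
      _ = w * d * t := by group
  exact mul_right_cancel h3

omit [Finite G] in
theorem c2d_card_mul_relIndex {H K : Subgroup G} (h : H ≤ K) :
    Nat.card H * H.relIndex K = Nat.card K := by
  have h1 := relIndex_mul_relIndex (⊥ : Subgroup G) H K bot_le h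
  rwa [relIndex_bot_left, relIndex_bot_left] at h1

set_option linter.unusedVariables false in
set_option linter.unusedSectionVars false in
/-- C2d -/
theorem n9_ord16 (X : Subgroup G) (hX : IsPGroup 2 X) (hs : SpecialData X)
    (hz : Nat.card (zc X) = 2) : Nat.card X ≠ 16 := by
  intro h16
  have hZle : zc X ≤ X := inf_le_left
  have hZc : ∀ u ∈ zc X, ∀ d ∈ X, u * d = d * u := by
    intro u hu d hd
    exact (mem_centralizer_iff.mp hu.2 d hd).symm
  have hZ2 : ∀ u ∈ zc X, ∀ v ∈ zc X, u ≠ 1 → v ≠ 1 → u = v := by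
    intro u hu v hv hu1 hv1
    obtain ⟨w, -, hw⟩ := (Nat.card_eq_two_iff' (1 : ↥(zc X))).mp hz
    have e1 := hw ⟨u, hu⟩ (fun hh => hu1 (congrArg Subtype.val hh))
    have e2 := hw ⟨v, hv⟩ (fun hh => hv1 (congrArg Subtype.val hh))
    exact congrArg Subtype.val (e1.trans e2.symm)
  have hZsq : ∀ u ∈ zc X, u ^ 2 = 1 := by
    intro u hu
    have h1 := pow_card_eq_one' (G := ↥(zc X)) (x := ⟨u, hu⟩)
    rw [hz] at h1
    exact congrArg Subtype.val h1
  have hcZ : ∀ g ∈ X, ∀ d ∈ X, g * d * g⁻¹ * d⁻¹ ∈ zc X := by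
    intro g hg d hd
    rw [← hs.comm]
    exact Subgroup.commutator_mem_commutator hg hd
  obtain ⟨x, hxX, hxZ⟩ : ∃ x ∈ X, x ∉ zc X := by
    by_contra hcon
    have h1 : zc X = X :=
      le_antisymm hZle (fun d hd => by by_contra hdz; exact hcon ⟨d, hd, hdz⟩)
    rw [h1] at hz
    omega
  obtain ⟨y, hyX, hxy⟩ : ∃ y ∈ X, x * y ≠ y * x := by
    by_contra hcon
    apply hxZ
    refine ⟨hxX, mem_centralizer_iff.mpr ?_⟩
    intro d hd
    by_contra hne
    exact hcon ⟨d, hd, fun e => hne e.symm⟩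
  have hC₁mem : ∀ d, d ∈ X ⊓ centralizer ({x} : Set G) ↔ d ∈ X ∧ x * d = d * x := by
    intro d
    rw [mem_inf, mem_centralizer_singleton_iff]
    constructor
    · rintro ⟨h1, h2⟩
      exact ⟨h1, h2.symm⟩
    · rintro ⟨h1, h2⟩
      exact ⟨h1, h2.symm⟩
  have hRmem : ∀ d, d ∈ X ⊓ centralizer ({x} : Set G) ⊓ centralizer ({y} : Set G) ↔
      d ∈ X ∧ x * d = d * x ∧ y * d = d * y := by
    intro d
    rw [mem_inf, hC₁mem, mem_centralizer_singleton_iff]
    constructor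
    · rintro ⟨⟨h1, h2⟩, h3⟩
      exact ⟨h1, h2, h3.symm⟩
    · rintro ⟨h1, h2, h3⟩
      exact ⟨⟨h1, h2⟩, h3.symm⟩
  have hdich1 : ∀ b ∈ X, b * y ∈ X ⊓ centralizer ({x} : Set G) ∨
      b ∈ X ⊓ centralizer ({x} : Set G) := by
    intro b hb
    by_cases hbx : x * b = b * x
    · right
      exact (hC₁mem b).mpr ⟨hb, hbx⟩
    · left
      exact (hC₁mem _).mpr ⟨mul_mem hb hyX,
        c2d_comm_mul X (zc X) hZc hZ2 hZsq hcZ hxX hyX hb hxy hbx⟩
  have hdich2 : ∀ b ∈ X ⊓ centralizer ({x} : Set G),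
      b * x ∈ X ⊓ centralizer ({x} : Set G) ⊓ centralizer ({y} : Set G) ∨
      b ∈ X ⊓ centralizer ({x} : Set G) ⊓ centralizer ({y} : Set G) := by
    intro b hb
    obtain ⟨hbX, hbx⟩ := (hC₁mem b).mp hb
    by_cases hby : y * b = b * y
    · right
      exact (hRmem b).mpr ⟨hbX, hbx, hby⟩
    · left
      refine (hRmem _).mpr ⟨mul_mem hbX hxX, ?_, ?_⟩
      · rw [← mul_assoc, hbx]
      · exact c2d_comm_mul X (zc X) hZc hZ2 hZsq hcZ hyX hxX hbX (fun e => hxy e.symm) hby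
  have hrel1 : (X ⊓ centralizer ({x} : Set G)).relIndex X = 2 := by
    rw [relIndex_eq_two_iff_exists_notMem_and]
    exact ⟨y, hyX, fun hy => hxy ((hC₁mem y).mp hy).2, hdich1⟩
  have hrel2 : (X ⊓ centralizer ({x} : Set G) ⊓ centralizer ({y} : Set G)).relIndex
      (X ⊓ centralizer ({x} : Set G)) = 2 := by
    rw [relIndex_eq_two_iff_exists_notMem_and]
    exact ⟨x, (hC₁mem x).mpr ⟨hxX, rfl⟩, fun hx => hxy ((hRmem x).mp hx).2.2.symm, hdich2⟩
  have hc1 := c2d_card_mul_relIndex (inf_le_left : X ⊓ centralizer ({x} : Set G) ≤ X)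
  have hc2 := c2d_card_mul_relIndex
    (inf_le_left : X ⊓ centralizer ({x} : Set G) ⊓ centralizer ({y} : Set G) ≤
      X ⊓ centralizer ({x} : Set G))
  rw [hrel1, h16] at hc1
  rw [hrel2] at hc2
  have hR4 : Nat.card ↥(X ⊓ centralizer ({x} : Set G) ⊓ centralizer ({y} : Set G)) = 4 := by
    omega
  have hRc : IsMulCommutative ↥(X ⊓ centralizer ({x} : Set G) ⊓ centralizer ({y} : Set G)) :=
    IsPGroup.isMulCommutative_of_card_eq_prime_sq (p := 2) (by rw [hR4]; norm_num)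
  have hRcomm : ∀ a b : ↥(X ⊓ centralizer ({x} : Set G) ⊓ centralizer ({y} : Set G)),
      a * b = b * a := fun a b => hRc.is_comm.comm a b
  have hZR : zc X ≤ X ⊓ centralizer ({x} : Set G) ⊓ centralizer ({y} : Set G) := by
    intro u hu
    exact (hRmem u).mpr ⟨hZle hu, (hZc u hu x hxX).symm, (hZc u hu y hyX).symm⟩
  obtain ⟨w, hwR, hwZ⟩ : ∃ w ∈ X ⊓ centralizer ({x} : Set G) ⊓ centralizer ({y} : Set G),
      w ∉ zc X := by
    by_contra hcon
    have h1 : zc X = X ⊓ centralizer ({x} : Set G) ⊓ centralizer ({y} : Set G) :=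
      le_antisymm hZR (fun d hd => by by_contra hdz; exact hcon ⟨d, hd, hdz⟩)
    rw [h1] at hz
    omega
  apply hwZ
  obtain ⟨hwX, hwx, hwy⟩ := (hRmem w).mp hwR
  refine ⟨hwX, mem_centralizer_iff.mpr ?_⟩
  have key : ∀ r ∈ X ⊓ centralizer ({x} : Set G) ⊓ centralizer ({y} : Set G),
      r * w = w * r := by
    intro r hr
    exact congrArg Subtype.val (hRcomm ⟨r, hr⟩ ⟨w, hwR⟩)
  have key1 : ∀ c ∈ X ⊓ centralizer ({x} : Set G), c * w = w * c := by
    intro c hc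
    rcases hdich2 c hc with h1 | h1
    · exact c2d_comm_of_mul (key _ h1) hwx
    · exact key c h1
  intro d hd
  rcases hdich1 d hd with h1 | h1
  · exact c2d_comm_of_mul (key1 _ h1) hwy
  · exact key1 d h1

end Cfsg.Agent.Helper87.N9
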