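import Cfsg.Agent.Helper55.N9Defs

/-!
CALL S4409 (helper55), piece M5c (helper87): a nonabelian minimal configuration with centre of
order 2 and no noncyclic abelian subgroup of order 8 has order 8.
-/

set_option autoImplicit false

namespace Cfsg.Agent.Helper87.N9

open Subgroup Cfsg.Agent.Helper55.N9

variable {G : Type*} [Group G] [Finite G]

omit [Finite G] in
/-- A subgroup generated by pairwise commuting elements is commutative. -/
theorem m5c_comm_of_gens (s : Set G) (hs : ∀ a ∈ s, ∀ b ∈ s, a * b = b * a) :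
    ∀ a ∈ closure s, ∀ b ∈ closure s, a * b = b * a := by
  have h1 : ∀ a ∈ s, closure s ≤ centralizer {a} := by
    intro a ha
    rw [closure_le]
    intro b hb
    exact mem_centralizer_singleton_iff.mpr (hs b hb a ha)
  intro a ha b hb
  have h2 : closure s ≤ centralizer {b} := by
    rw [closure_le]
    intro c hc
    have h3 := mem_centralizer_singleton_iff.mp (h1 c hc hb)
    exact mem_centralizer_singleton_iff.mpr h3.symm
  exact mem_centralizer_singleton_iff.mp (h2 ha)

/-- the subgroup generated by `Z`, `x`, `y` -/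
def m5cA (Z : Subgroup G) (x y : G) : Subgroup G := closure ((Z : Set G) ∪ {x, y})

set_option linter.unusedVariables false in
/-- M5c -/
theorem n9_min_card8 (T : Tools G) (K D : Subgroup G) (h : MinCfg K D) (mf : MinFacts K D)
    (hD : IsPGroup 2 D) (hK : Odd (Nat.card K))
    (hna : ¬ ∀ a ∈ D, ∀ b ∈ D, a * b = b * a) (hN : NoA8 D)
    (hZ : Nat.card (zc D) = 2) : Nat.card D = 8 := by
  obtain ⟨hsq, hcomm, -, hZD⟩ := mf.sq hna
  have hZle : zc D ≤ D := inf_le_left
  have hZc : ∀ u ∈ zc D, ∀ d ∈ D, u * d = d * u := by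
    intro u hu d hd
    exact (mem_centralizer_iff.mp hu.2 d hd).symm
  have hZ2 : ∀ u ∈ zc D, ∀ v ∈ zc D, u ≠ 1 → v ≠ 1 → u = v := by
    intro u hu v hv hu1 hv1
    obtain ⟨w, -, hw⟩ := (Nat.card_eq_two_iff' (1 : ↥(zc D))).mp hZ
    have e1 := hw ⟨u, hu⟩ (fun hh => hu1 (congrArg Subtype.val hh))
    have e2 := hw ⟨v, hv⟩ (fun hh => hv1 (congrArg Subtype.val hh))
    exact congrArg Subtype.val (e1.trans e2.symm)
  have hZsq : ∀ u ∈ zc D, u ^ 2 = 1 := by
    intro u hu
    have h1 := pow_card_eq_one' (G := ↥(zc D)) (x := ⟨u, hu⟩)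
    rw [hZ] at h1
    exact congrArg Subtype.val h1
  have hab4 : ∀ A : Subgroup G, A ≤ D → (∀ a ∈ A, ∀ b ∈ A, a * b = b * a) →
      Nat.card A ≤ 4 := by
    intro A hAD hAab
    rcases T.ab8 A (hD.to_le hAD) hAab (hN.mono hAD) with hcyc | hle
    · obtain ⟨g, hg⟩ := IsCyclic.exists_generator (α := ↥A)
      have h1 : (g : G) ^ 4 = 1 := by
        have h2 := hZsq _ (hsq g (hAD g.2))
        rw [← pow_mul] at h2
        exact h2
      have h2 : orderOf g ∣ 4 := by
        rw [← Subgroup.orderOf_coe]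
        exact orderOf_dvd_of_pow_eq_one h1
      rw [← orderOf_eq_card_of_forall_mem_zpowers hg]
      exact Nat.le_of_dvd (by norm_num) h2
    · exact hle
  obtain ⟨x, hxD, hxZ⟩ : ∃ x ∈ D, x ∉ zc D := by
    by_contra hcon
    apply hZD
    apply le_antisymm hZle
    intro d hd
    by_contra hdz
    exact hcon ⟨d, hd, hdz⟩
  have hgD : ∀ y ∈ D, ∀ g ∈ ((zc D : Set G) ∪ {x, y}), g ∈ D := by
    intro y hy g hg
    rcases hg with hg | hg
    · exact hZle hg
    · simp only [Set.mem_insert_iff, Set.mem_singleton_iff] at hg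
      rcases hg with rfl | rfl
      · exact hxD
      · exact hy
  have hAab : ∀ y ∈ D, x * y = y * x → ∀ a ∈ m5cA (zc D) x y, ∀ b ∈ m5cA (zc D) x y,
      a * b = b * a := by
    intro y hyD hxy
    apply m5c_comm_of_gens
    intro a ha b hb
    have haD := hgD y hyD a ha
    have hbD := hgD y hyD b hb
    rcases ha with ha | ha
    · exact hZc a ha b hbD
    · rcases hb with hb | hb
      · exact (hZc b hb a haD).symm
      · simp only [Set.mem_insert_iff, Set.mem_singleton_iff] at ha hb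
        rcases ha with ha | ha <;> rcases hb with hb | hb
        · rw [ha, hb]
        · rw [ha, hb]; exact hxy
        · rw [ha, hb]; exact hxy.symm
        · rw [ha, hb]
  have hAD : ∀ y ∈ D, m5cA (zc D) x y ≤ D := by
    intro y hy
    apply (closure_le D).mpr
    intro g hg
    exact hgD y hy g hg
  have hA4 : ∀ y ∈ D, x * y = y * x → Nat.card (m5cA (zc D) x y) ≤ 4 :=
    fun y hy hxy => hab4 _ (hAD y hy) (hAab y hy hxy)
  have hZA : ∀ y, zc D ≤ m5cA (zc D) x y := fun y u hu => subset_closure (Or.inl hu)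
  have hxA : ∀ y, x ∈ m5cA (zc D) x y :=
    fun y => subset_closure (Or.inr (Set.mem_insert x _))
  have hyA : ∀ y, y ∈ m5cA (zc D) x y :=
    fun y => subset_closure (Or.inr (Set.mem_insert_of_mem _ rfl))
  have hB4 : 4 ≤ Nat.card (m5cA (zc D) x 1) := by
    have h1 : Nat.card (zc D) ∣ Nat.card (m5cA (zc D) x 1) := Subgroup.card_dvd_of_le (hZA 1)
    rw [hZ] at h1
    have h2 : Nat.card (m5cA (zc D) x 1) ≠ 2 := by
      intro h2
      have h3 : zc D = m5cA (zc D) x 1 :=
        Subgroup.eq_of_le_of_card_ge (hZA 1) (by rw [hZ, h2])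
      exact hxZ (h3 ▸ hxA 1)
    obtain ⟨k, hk⟩ := h1
    have h3 : 0 < Nat.card (m5cA (zc D) x 1) := Nat.card_pos
    omega
  have hA1 : ∀ y ∈ D, x * y = y * x → m5cA (zc D) x 1 = m5cA (zc D) x y := by
    intro y hy hxy
    apply Subgroup.eq_of_le_of_card_ge
    · apply (closure_le _).mpr
      intro g hg
      rcases hg with hg | hg
      · exact hZA y hg
      · simp only [Set.mem_insert_iff, Set.mem_singleton_iff] at hg
        rcases hg with hg | hg
        · rw [hg]; exact hxA y
        · rw [hg]; exact one_mem _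
    · exact (hA4 y hy hxy).trans hB4
  have hC : ∀ y ∈ D, x * y = y * x → y ∈ m5cA (zc D) x 1 := by
    intro y hy hxy
    rw [hA1 y hy hxy]
    exact hyA y
  obtain ⟨a, haD, hax⟩ : ∃ a ∈ D, x * a ≠ a * x := by
    by_contra hcon
    apply hxZ
    refine ⟨hxD, mem_centralizer_iff.mpr ?_⟩
    intro d hd
    by_contra hne
    exact hcon ⟨d, hd, fun e => hne e.symm⟩
  have hcZ : ∀ d ∈ D, x * d * x⁻¹ * d⁻¹ ∈ zc D := by
    intro d hd
    apply hcomm
    exact Subgroup.commutator_mem_commutator hxD hd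
  have hrel : (m5cA (zc D) x 1).relIndex D = 2 := by
    rw [relIndex_eq_two_iff_exists_notMem_and]
    refine ⟨a, haD, ?_, ?_⟩
    · intro haA
      exact hax (hAab 1 (one_mem _) (by simp) x (hxA 1) a haA)
    · intro b hb
      by_cases hbx : x * b = b * x
      · right
        exact hC b hb hbx
      · left
        apply hC (b * a) (mul_mem hb haD)
        have h1 := hcZ a haD
        have h2 := hcZ b hb
        have h1' : x * a * x⁻¹ * a⁻¹ ≠ 1 := by
          intro e
          apply hax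
          calc x * a = (x * a * x⁻¹ * a⁻¹) * (a * x) := by group
            _ = a * x := by rw [e, one_mul]
        have h2' : x * b * x⁻¹ * b⁻¹ ≠ 1 := by
          intro e
          apply hbx
          calc x * b = (x * b * x⁻¹ * b⁻¹) * (b * x) := by group
            _ = b * x := by rw [e, one_mul]
        have e1 := hZ2 _ h1 _ h2 h1' h2'
        have e2 := hZsq _ h2
        have e3 : b * (x * b * x⁻¹ * b⁻¹) = (x * b * x⁻¹ * b⁻¹) * b := (hZc _ h2 b hb).symm
        have e4 : x * (b * a) * x⁻¹ * (b * a)⁻¹ = 1 := by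
          calc x * (b * a) * x⁻¹ * (b * a)⁻¹
              = (x * b * x⁻¹ * b⁻¹) * (b * (x * a * x⁻¹ * a⁻¹)) * b⁻¹ := by group
            _ = (x * b * x⁻¹ * b⁻¹) * (b * (x * b * x⁻¹ * b⁻¹)) * b⁻¹ := by rw [e1]
            _ = (x * b * x⁻¹ * b⁻¹) * ((x * b * x⁻¹ * b⁻¹) * b) * b⁻¹ := by rw [e3]
            _ = (x * b * x⁻¹ * b⁻¹) ^ 2 := by rw [pow_two]; group
            _ = 1 := e2
        calc x * (b * a) = (x * (b * a) * x⁻¹ * (b * a)⁻¹) * ((b * a) * x) := by group
          _ = b * a * x := by rw [e4, one_mul]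
  have hcard : Nat.card (m5cA (zc D) x 1) * (m5cA (zc D) x 1).relIndex D = Nat.card D := by
    have h1 := relIndex_mul_relIndex (⊥ : Subgroup G) (m5cA (zc D) x 1) D bot_le
      (hAD 1 (one_mem _))
    rwa [relIndex_bot_left, relIndex_bot_left] at h1
  have h4 : Nat.card (m5cA (zc D) x 1) = 4 :=
    le_antisymm (hA4 1 (one_mem _) (by simp)) hB4
  rw [← hcard, h4, hrel]

end Cfsg.Agent.Helper87.N9
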