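import Mathlib
import Cfsg.Agent.Helper60.NCDefs

/-!
CALL S4135 (helper60), piece ORD (helper87).
-/

set_option autoImplicit false
open Subgroup

namespace Cfsg.Agent.Helper87.NCORD
open Cfsg.Agent.Helper60.NC

variable {G : Type*} [Group G] [Finite G] {r : ℕ} [Fact r.Prime] {N : Subgroup G} {m : ℕ}

omit [Finite G] in
theorem comm_center_iff (a b : G) :
    a⁻¹ * b⁻¹ * a * b ∈ center G ↔
      Commute (QuotientGroup.mk a : G ⧸ center G) (QuotientGroup.mk b) := by
  have e : a⁻¹ * b⁻¹ * a * b = (b * a)⁻¹ * (a * b) := by group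
  rw [e, ← QuotientGroup.eq]
  constructor
  · intro h
    show (QuotientGroup.mk a : G ⧸ center G) * QuotientGroup.mk b
      = QuotientGroup.mk b * QuotientGroup.mk a
    rw [← QuotientGroup.mk_mul, ← QuotientGroup.mk_mul, h]
  · intro h
    have h' : (QuotientGroup.mk a : G ⧸ center G) * QuotientGroup.mk b
      = QuotientGroup.mk b * QuotientGroup.mk a := h
    rw [QuotientGroup.mk_mul, QuotientGroup.mk_mul, h']

omit [Finite G] in
theorem powmul (a b : G) (hab : a⁻¹ * b⁻¹ * a * b ∈ center G) (n : ℕ) :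
    ∃ z ∈ center G, (a * b) ^ n = a ^ n * b ^ n * z := by
  refine ⟨(a ^ n * b ^ n)⁻¹ * (a * b) ^ n, ?_, by group⟩
  rw [← QuotientGroup.eq]
  have hc := (comm_center_iff a b).mp hab
  simp only [QuotientGroup.mk_mul, QuotientGroup.mk_pow]
  exact (hc.mul_pow n).symm

theorem claimA (hc : Ctx G r N m) {y w : G} (hM : Mix G r N y w) (g : G) (hgN : g ∈ N)
    (hgC : g ∉ centralizer ({y} : Set G)) (w₁ : G) (hw₁ : w₁ ∈ centralizer ({y} : Set G))
    (hw₁N : w₁ ∈ N) (hw₁Z : w₁ ∉ center G) (hcomm : w₁⁻¹ * g⁻¹ * w₁ * g ∈ center G) (n : ℕ) :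
    g ^ n ∈ center G ↔ w₁ ^ n ∈ center G := by
  obtain ⟨z, hz, hun⟩ := powmul w₁ g hcomm n
  have huN : w₁ * g ∈ N := N.mul_mem hw₁N hgN
  have hCw : centralizer ({w₁} : Set G) = centralizer ({y} : Set G) := hM.cen hc hw₁N hw₁ hw₁Z
  have hgw : ¬ g * w₁ = w₁ * g := by
    intro h
    apply hgC
    rw [← hCw]
    exact mem_centralizer_singleton_iff.2 h
  constructor
  · intro hgn
    by_contra hwn
    have e : w₁ ^ n = (w₁ * g) ^ n * z⁻¹ * (g ^ n)⁻¹ := by rw [hun]; group
    have hunZ : (w₁ * g) ^ n ∉ center G := by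
      intro h
      apply hwn
      rw [e]
      exact mul_mem (mul_mem h (inv_mem hz)) (inv_mem hgn)
    have huZ : w₁ * g ∉ center G := fun h => hunZ (pow_mem h n)
    have hwnC : centralizer ({w₁ ^ n} : Set G) = centralizer ({y} : Set G) :=
      hM.cen hc (pow_mem hw₁N n) (pow_mem hw₁ n) hwn
    have hle : centralizer ({w₁ * g} : Set G) ≤ centralizer ({y} : Set G) := by
      rw [← hwnC]
      intro d hd
      rw [mem_centralizer_singleton_iff] at hd ⊢
      have c1 : Commute d ((w₁ * g) ^ n) := Commute.pow_right hd n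
      have c2 : Commute d z⁻¹ := Commute.inv_right (Subgroup.mem_center_iff.mp hz d : Commute d z)
      have c3 : Commute d (g ^ n)⁻¹ :=
        Commute.inv_right (Subgroup.mem_center_iff.mp hgn d : Commute d (g ^ n))
      rw [e]
      exact ((c1.mul_right c2).mul_right c3).eq
    have heq := hc.cent_eq huN hM.yN huZ hM.yZ hle
    have h1 : w₁ ∈ centralizer ({w₁ * g} : Set G) := by rw [heq]; exact hw₁
    rw [mem_centralizer_singleton_iff] at h1
    apply hgw
    have h2 : w₁ * (w₁ * g) = w₁ * (g * w₁) := by rw [h1, mul_assoc]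
    exact (mul_left_cancel h2).symm
  · intro hwn
    by_contra hgn
    have e : g ^ n = (w₁ ^ n)⁻¹ * (w₁ * g) ^ n * z⁻¹ := by rw [hun]; group
    have hunZ : (w₁ * g) ^ n ∉ center G := by
      intro h
      apply hgn
      rw [e]
      exact mul_mem (mul_mem (inv_mem hwn) h) (inv_mem hz)
    have huZ : w₁ * g ∉ center G := fun h => hunZ (pow_mem h n)
    have hgZ : g ∉ center G := fun h => hgn (pow_mem h n)
    have hgnN : g ^ n ∈ N := pow_mem hgN n
    have hle : centralizer ({w₁ * g} : Set G) ≤ centralizer ({g ^ n} : Set G) := by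
      intro d hd
      rw [mem_centralizer_singleton_iff] at hd ⊢
      have c1 : Commute d ((w₁ * g) ^ n) := Commute.pow_right hd n
      have c2 : Commute d z⁻¹ := Commute.inv_right (Subgroup.mem_center_iff.mp hz d : Commute d z)
      have c3 : Commute d (w₁ ^ n)⁻¹ :=
        Commute.inv_right (Subgroup.mem_center_iff.mp hwn d : Commute d (w₁ ^ n))
      rw [e]
      exact ((c3.mul_right c1).mul_right c2).eq
    have heq1 := hc.cent_eq huN hgnN huZ hgn hle
    have hle2 : centralizer ({g} : Set G) ≤ centralizer ({g ^ n} : Set G) :=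
      Cfsg.Agent.Helper68.centralizer_le_of_mem_zpowers (pow_mem (mem_zpowers g) n)
    have heq2 := hc.cent_eq hgN hgnN hgZ hgn hle2
    have h1 : g ∈ centralizer ({w₁ * g} : Set G) := by
      rw [heq1, ← heq2]; exact mem_centralizer_singleton_iff.2 rfl
    rw [mem_centralizer_singleton_iff] at h1
    apply hgw
    have h2 : g * w₁ * g = w₁ * g * g := by rw [← h1, mul_assoc]
    exact mul_right_cancel h2

/-- ORD (uses POWMUL) -/
theorem ord_r (hc : Ctx G r N m) {y w : G} (hM : Mix G r N y w) (g : G)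
    (hg : ∃ k : ℕ, g ^ r ^ k = 1) (hgC : g ∉ centralizer ({y} : Set G)) (w₁ : G)
    (hw₁ : w₁ ∈ centralizer ({y} : Set G)) (hw₁r : ∃ k : ℕ, w₁ ^ r ^ k = 1)
    (hw₁Z : w₁ ∉ center G) (hcomm : w₁⁻¹ * g⁻¹ * w₁ * g ∈ center G) : g ^ r ∈ center G := by
  classical
  have hgN : g ∈ N := hc.hr g hg
  have hw₁N : w₁ ∈ N := hc.hr w₁ hw₁r
  have hex : ∃ k : ℕ, g ^ r ^ k ∈ center G := by
    obtain ⟨K, hK⟩ := hg
    exact ⟨K, by rw [hK]; exact one_mem _⟩
  have hk0 := Nat.find_spec hex
  have hmin : ∀ j, j < Nat.find hex → g ^ r ^ j ∉ center G := fun j hj => Nat.find_min hex hj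
  generalize Nat.find hex = k0 at hk0 hmin
  match k0, hk0, hmin with
  | 0, hk0, _ =>
    exfalso
    apply hgC
    rw [pow_zero, pow_one] at hk0
    exact Subgroup.center_le_centralizer _ hk0
  | 1, hk0, _ => rwa [pow_one] at hk0
  | (j + 2), hk0, hmin =>
    exfalso
    have hA1 : w₁ ^ r ^ (j + 2) ∈ center G :=
      (claimA hc hM g hgN hgC w₁ hw₁ hw₁N hw₁Z hcomm _).mp hk0
    have hA2 : w₁ ^ r ^ (j + 1) ∉ center G := fun h =>
      hmin (j + 1) (by omega) ((claimA hc hM g hgN hgC w₁ hw₁ hw₁N hw₁Z hcomm _).mpr h)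
    have hw₂Z : w₁ ^ r ∉ center G := by
      intro h
      apply hA2
      have h5 := pow_mem h (r ^ j)
      rwa [← pow_mul, ← pow_succ'] at h5
    have hcomm₂ : (w₁ ^ r)⁻¹ * g⁻¹ * w₁ ^ r * g ∈ center G := by
      rw [comm_center_iff] at hcomm ⊢
      rw [QuotientGroup.mk_pow]
      exact hcomm.pow_left r
    have h3 := (claimA hc hM g hgN hgC (w₁ ^ r) (pow_mem hw₁ r) (pow_mem hw₁N r) hw₂Z hcomm₂
      (r ^ (j + 1))).mpr (by rw [← pow_mul, ← pow_succ']; exact hA1)
    exact hmin (j + 1) (by omega) h3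

end Cfsg.Agent.Helper87.NCORD
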