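import Mathlib
import Cfsg.Agent.Helper33.Sections

/-!
# Groups with a metabelian-by-`p` shape have no `SL(2, p)` section (helper87)

If `G` has a subgroup `K` such that every element has a `p`-power power in `K` and all commutators
of elements of `K` are `p`-elements, then (for odd `p`) `SL(2, p)` is not a section of `G`: the
quaternion relations `w² = u² = z`, `[w, u] = z ≠ 1`, `z² = 1`, `z` central cannot be lifted.
-/

set_option autoImplicit false

namespace Cfsg.Agent.Helper87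

open scoped commutatorElement

theorem ax_comm_central_left {X : Type*} [Group X] (c a b : X) (hc : ∀ x : X, c * x = x * c) :
    ⁅c * a, b⁆ = ⁅a, b⁆ := by
  have h1 : c * a * b = a * b * c := by rw [mul_assoc, hc (a * b)]
  have h2 : c * a⁻¹ = a⁻¹ * c := hc a⁻¹
  calc ⁅c * a, b⁆ = c * a * b * (a⁻¹ * c⁻¹) * b⁻¹ := by rw [commutatorElement_def, mul_inv_rev]
    _ = a * b * c * (a⁻¹ * c⁻¹) * b⁻¹ := by rw [h1]
    _ = a * b * (c * a⁻¹) * c⁻¹ * b⁻¹ := by group
    _ = a * b * (a⁻¹ * c) * c⁻¹ * b⁻¹ := by rw [h2]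
    _ = ⁅a, b⁆ := by rw [commutatorElement_def]; group

theorem ax_comm_central_right {X : Type*} [Group X] (c a b : X) (hc : ∀ x : X, c * x = x * c) :
    ⁅a, c * b⁆ = ⁅a, b⁆ := by
  rw [← commutatorElement_inv (c * b) a, ax_comm_central_left c b a hc, commutatorElement_inv]

/-- A group with quaternion-type elements `w, u` (`w² = u² = z` central of order two, `[w, u] = z`) is
not a section of a group `G` having a subgroup `K` with `G/K` of `p`-power exponent type and all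
commutators of `K` being `p`-elements (`p` odd). -/
theorem ax_no_quat_section {G X : Type*} [Group G] [Group X] {p : ℕ} [Fact p.Prime] (hp : p ≠ 2)
    (K : Subgroup G) (hK : ∀ g : G, ∃ k : ℕ, g ^ p ^ k ∈ K)
    (hKab : ∀ x ∈ K, ∀ y ∈ K, ∃ j : ℕ, ⁅x, y⁆ ^ p ^ j = 1)
    (w u z : X) (hz1 : z ≠ 1) (hzc : ∀ x : X, z * x = x * z) (hw : w * w = z) (hu : u * u = z)
    (hz2 : z * z = 1) (hwu : w * u = z * (u * w)) :
    ¬ Helper33.IsSectionOf G X := by
  rintro ⟨K₀, f, hf⟩
  obtain ⟨w', hw'⟩ := hf w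
  obtain ⟨u', hu'⟩ := hf u
  obtain ⟨k1, hk1⟩ := hK (w' : G)
  obtain ⟨k2, hk2⟩ := hK (u' : G)
  obtain ⟨j, hj⟩ := hKab _ hk1 _ hk2
  have hodd : ∀ k : ℕ, Odd (p ^ k) := fun k => (Nat.Prime.odd_of_ne_two Fact.out hp).pow
  have hzpow : ∀ m : ℕ, z ^ (2 * m) = 1 := by
    intro m
    rw [pow_mul, pow_two, hz2, one_pow]
  have key : ∀ (a : X), a * a = z → ∀ n : ℕ, Odd n → a ^ n = a ∨ a ^ n = z * a := by
    rintro a ha n ⟨m, rfl⟩
    have h1 : a ^ (2 * m + 1) = z ^ m * a := by rw [pow_succ, pow_mul, pow_two, ha]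
    rw [h1]
    rcases Nat.even_or_odd m with ⟨t, ht⟩ | ⟨t, ht⟩
    · left
      rw [ht, ← two_mul, hzpow, one_mul]
    · right
      rw [ht, pow_succ, hzpow, one_mul]
  have hbase : ⁅w, u⁆ = z := by
    rw [commutatorElement_def, hwu]
    group
  have hcomm : ∀ a b : X, (a = w ∨ a = z * w) → (b = u ∨ b = z * u) → ⁅a, b⁆ = z := by
    rintro a b (rfl | rfl) (rfl | rfl)
    · exact hbase
    · rw [ax_comm_central_right z _ _ hzc, hbase]
    · rw [ax_comm_central_left z _ _ hzc, hbase]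
    · rw [ax_comm_central_left z _ _ hzc, ax_comm_central_right z _ _ hzc, hbase]
  have h1 : f ⁅w' ^ p ^ k1, u' ^ p ^ k2⁆ = z := by
    rw [map_commutatorElement, map_pow, map_pow, hw', hu']
    exact hcomm _ _ (key w hw _ (hodd k1)) (key u hu _ (hodd k2))
  have h2 : (⁅w' ^ p ^ k1, u' ^ p ^ k2⁆ : K₀) ^ p ^ j = 1 := by
    apply Subtype.ext
    have e : (((⁅w' ^ p ^ k1, u' ^ p ^ k2⁆ : K₀) ^ p ^ j : K₀) : G) =
        ⁅(w' : G) ^ p ^ k1, (u' : G) ^ p ^ k2⁆ ^ p ^ j := by
      simp only [commutatorElement_def, Subgroup.coe_mul, Subgroup.coe_inv, Subgroup.coe_pow]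
    rw [e, hj]
    rfl
  have h3 : z ^ p ^ j = 1 := by
    rw [← h1, ← map_pow, h2, map_one]
  obtain ⟨m, hm⟩ := hodd j
  rw [hm, pow_succ, hzpow, one_mul] at h3
  exact hz1 h3

/-- The element `[[0, 1], [-1, 0]]` of `SL(2, p)`. -/
def axW (p : ℕ) : Matrix.SpecialLinearGroup (Fin 2) (ZMod p) :=
  ⟨!![0, 1; -1, 0], by simp [Matrix.det_fin_two]⟩

/-- The element `[[a, b], [b, -a]]` of `SL(2, p)` for `a² + b² = -1`. -/
def axU (p : ℕ) (a b : ZMod p) (hab : a ^ 2 + b ^ 2 = -1) :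
    Matrix.SpecialLinearGroup (Fin 2) (ZMod p) :=
  ⟨!![a, b; b, -a], by rw [Matrix.det_fin_two_of]; linear_combination (-1 : ZMod p) * hab⟩

/-- The element `-1` of `SL(2, p)`. -/
def axZ (p : ℕ) : Matrix.SpecialLinearGroup (Fin 2) (ZMod p) :=
  ⟨!![-1, 0; 0, -1], by simp [Matrix.det_fin_two]⟩

/-- For odd `p`, `SL(2, p)` is not a section of a group `G` having a subgroup `K` such that every
element of `G` has a `p`-power power in `K` and all commutators of elements of `K` are `p`-elements. -/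
theorem ax_no_sl2_section {G : Type*} [Group G] {p : ℕ} [Fact p.Prime] (hp : p ≠ 2)
    (K : Subgroup G) (hK : ∀ g : G, ∃ k : ℕ, g ^ p ^ k ∈ K)
    (hKab : ∀ x ∈ K, ∀ y ∈ K, ∃ j : ℕ, ⁅x, y⁆ ^ p ^ j = 1) :
    ¬ Helper33.IsSectionOf G (Matrix.SpecialLinearGroup (Fin 2) (ZMod p)) := by
  obtain ⟨a, b, hab⟩ := ZMod.sq_add_sq p (-1)
  have : Fact (2 < p) := ⟨lt_of_le_of_ne (Fact.out : p.Prime).two_le (Ne.symm hp)⟩
  apply ax_no_quat_section hp K hK hKab (axW p) (axU p a b hab) (axZ p)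
  · intro h
    have h1 := congrArg (fun m : Matrix.SpecialLinearGroup (Fin 2) (ZMod p) => m.1 0 0) h
    simp [axZ] at h1
    exact ZMod.neg_one_ne_one h1
  · intro x
    ext i j
    simp only [Matrix.SpecialLinearGroup.coe_mul]
    fin_cases i <;> fin_cases j <;>
      simp [axZ, Matrix.mul_apply, Fin.sum_univ_two]
  · ext i j
    simp only [Matrix.SpecialLinearGroup.coe_mul]
    fin_cases i <;> fin_cases j <;>
      simp [axW, axZ, Matrix.mul_apply, Fin.sum_univ_two]
  · ext i j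
    simp only [Matrix.SpecialLinearGroup.coe_mul]
    fin_cases i <;> fin_cases j <;>
      simp [axU, axZ, Matrix.mul_apply, Fin.sum_univ_two] <;>
      first | linear_combination hab | ring
  · ext i j
    simp only [Matrix.SpecialLinearGroup.coe_mul, Matrix.SpecialLinearGroup.coe_one]
    fin_cases i <;> fin_cases j <;>
      simp [axZ, Matrix.mul_apply, Fin.sum_univ_two]
  · ext i j
    simp only [Matrix.SpecialLinearGroup.coe_mul]
    fin_cases i <;> fin_cases j <;>
      simp [axW, axU, axZ, Matrix.mul_apply, Fin.sum_univ_two]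

end Cfsg.Agent.Helper87
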