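import Mathlib
import Cfsg.Agent.Helper87.GenExtraA
import Cfsg.Agent.Helper87.MetaEnd

set_option autoImplicit false

/-! Decomposition of a generalized extraspecial group with an elementary abelian maximal subgroup (helper87). -/

namespace Cfsg.Agent.Helper87

section
variable {G : Type*} [Group G]

theorem conj_pow_twist (t y c : G) (hc : ∀ g : G, Commute c g) (hty : t * y * t⁻¹ * y⁻¹ = c) (i : ℕ) :
    t ^ i * y * (t ^ i)⁻¹ = c ^ i * y := by
  have h1 : t * y * t⁻¹ = c * y := by rw [← hty]; group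
  induction i with
  | zero => simp
  | succ i ih =>
    calc t ^ (i + 1) * y * (t ^ (i + 1))⁻¹ = t * (t ^ i * y * (t ^ i)⁻¹) * t⁻¹ := by rw [pow_succ']; group
      _ = t * (c ^ i * y) * t⁻¹ := by rw [ih]
      _ = c ^ i * (t * y * t⁻¹) := by
        rw [← mul_assoc, ← ((hc t).pow_left i).eq]; group
      _ = c ^ (i + 1) * y := by rw [h1, ← mul_assoc, ← pow_succ]

theorem conj_pow_twist' (t y c : G) (hc : ∀ g : G, Commute c g) (hty : t * y * t⁻¹ * y⁻¹ = c) (i : ℕ) :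
    (t ^ i)⁻¹ * y * t ^ i = (c ^ i)⁻¹ * y := by
  have h1 := conj_pow_twist t y c hc hty i
  have h2 : y = (t ^ i)⁻¹ * (c ^ i * y) * t ^ i := by rw [← h1]; group
  have h3 : (t ^ i)⁻¹ * (c ^ i * y) * t ^ i = c ^ i * ((t ^ i)⁻¹ * y * t ^ i) := by
    rw [← mul_assoc, ← ((hc (t ^ i)⁻¹).pow_left i).eq]; group
  rw [h3] at h2
  calc (t ^ i)⁻¹ * y * t ^ i = (c ^ i)⁻¹ * (c ^ i * ((t ^ i)⁻¹ * y * t ^ i)) := by group
    _ = (c ^ i)⁻¹ * y := by rw [← h2]

theorem conj_pow_twist_right (t y c : G) (hc : ∀ g : G, Commute c g) (hty : t * y * t⁻¹ * y⁻¹ = c) (j : ℕ) :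
    t * y ^ j * t⁻¹ = c ^ j * y ^ j := by
  have h1 : t * y * t⁻¹ = c * y := by rw [← hty]; group
  rw [← conj_pow, h1, (hc y).mul_pow]

end

end Cfsg.Agent.Helper87
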