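import Mathlib
import Cfsg.Agent.Helper87.GenExtraB
import Cfsg.Agent.Helper87.OddFix
import Cfsg.Agent.Helper73.Taussky

set_option autoImplicit false

/-! Decomposition `G ≅ E × A` of a generalized extraspecial group with an elementary abelian centralizer
of index `p` and an element of order `p` outside it (helper87). -/

namespace Cfsg.Agent.Helper87

open scoped commutatorElement

section
variable {G : Type*} [Group G]

theorem card_sup_of_inf_eq_bot (H K : Subgroup G) [K.Normal] (h : H ⊓ K = ⊥) :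
    Nat.card ↥(H ⊔ K) = Nat.card H * Nat.card K := by
  have h1 := Subgroup.relIndex_mul_relIndex (⊥ : Subgroup G) K (H ⊔ K) bot_le le_sup_right
  rw [Subgroup.relIndex_bot_left, Subgroup.relIndex_bot_left, Subgroup.relIndex_sup_right,
    ← Subgroup.inf_relIndex_left, h, Subgroup.relIndex_bot_left] at h1
  rw [← h1, mul_comm]

theorem normal_of_central (H : Subgroup G) (h : ∀ a ∈ H, ∀ g : G, Commute a g) : H.Normal :=
  ⟨fun a ha g => by rw [← (h a ha g).eq, mul_inv_cancel_right]; exact ha⟩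

theorem exists_pow_mul_commute (c t y : G) (hc : ∀ g : G, Commute c g)
    (hZ : ∀ x w : G, ∃ n : ℕ, x * w * x⁻¹ * w⁻¹ = c ^ n) (hty : t * y * t⁻¹ * y⁻¹ = c) (x : G) :
    ∃ n : ℕ, Commute ((t ^ n)⁻¹ * x) y := by
  obtain ⟨n, hn⟩ := hZ x y
  refine ⟨n, ?_⟩
  have h1 : x * y = c ^ n * (y * x) := by rw [← hn]; group
  have h2 : (t ^ n)⁻¹ * y = (c ^ n)⁻¹ * (y * (t ^ n)⁻¹) := by
    rw [← mul_assoc, ← conj_pow_twist' t y c hc hty n]; group
  show (t ^ n)⁻¹ * x * y = y * ((t ^ n)⁻¹ * x)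
  calc (t ^ n)⁻¹ * x * y = (t ^ n)⁻¹ * (x * y) := mul_assoc _ _ _
    _ = (t ^ n)⁻¹ * (c ^ n * (y * x)) := by rw [h1]
    _ = c ^ n * ((t ^ n)⁻¹ * y) * x := by
      rw [← mul_assoc, ← ((hc (t ^ n)⁻¹).pow_left n).eq]; group
    _ = c ^ n * ((c ^ n)⁻¹ * (y * (t ^ n)⁻¹)) * x := by rw [h2]
    _ = y * ((t ^ n)⁻¹ * x) := by group

theorem exists_central_mul_pow (c t y : G) (hc : ∀ g : G, Commute c g)
    (hZ : ∀ x w : G, ∃ n : ℕ, x * w * x⁻¹ * w⁻¹ = c ^ n) (hty : t * y * t⁻¹ * y⁻¹ = c)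
    (hMab : ∀ a b : G, Commute a y → Commute b y → Commute a b) (m : G) (hm : Commute m y) :
    ∃ a : ℕ, ∀ g : G, Commute (m * (y ^ a)⁻¹) g := by
  obtain ⟨a, ha⟩ := hZ t m
  refine ⟨a, ?_⟩
  have hm'y : Commute (m * (y ^ a)⁻¹) y := hm.mul_left ((Commute.refl y).pow_left a).inv_left
  have h1 : t * m * t⁻¹ = c ^ a * m := by rw [← ha]; group
  have h2 : t * y ^ a * t⁻¹ = c ^ a * y ^ a := conj_pow_twist_right t y c hc hty a
  have h3 : t * (m * (y ^ a)⁻¹) * t⁻¹ = m * (y ^ a)⁻¹ := by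
    calc t * (m * (y ^ a)⁻¹) * t⁻¹ = (t * m * t⁻¹) * (t * y ^ a * t⁻¹)⁻¹ := by group
      _ = c ^ a * m * (c ^ a * y ^ a)⁻¹ := by rw [h1, h2]
      _ = c ^ a * (m * (y ^ a)⁻¹) * (c ^ a)⁻¹ := by group
      _ = m * (y ^ a)⁻¹ := by rw [((hc (m * (y ^ a)⁻¹)).pow_left a).eq, mul_inv_cancel_right]
  have hm't : Commute (m * (y ^ a)⁻¹) t := by
    show m * (y ^ a)⁻¹ * t = t * (m * (y ^ a)⁻¹)
    calc m * (y ^ a)⁻¹ * t = t * (m * (y ^ a)⁻¹) * t⁻¹ * t := by rw [h3]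
      _ = t * (m * (y ^ a)⁻¹) := by group
  intro g
  obtain ⟨n, hn⟩ := exists_pow_mul_commute c t y hc hZ hty g
  have h4 : Commute (m * (y ^ a)⁻¹) ((t ^ n)⁻¹ * g) := hMab _ _ hm'y hn
  have h5 : Commute (m * (y ^ a)⁻¹) (t ^ n) := hm't.pow_right n
  have h6 := h5.mul_right h4
  rwa [mul_inv_cancel_left] at h6

theorem exists_complement_central [Finite G] {p : ℕ} [Fact p.Prime] (c : G) (hc : ∀ g : G, Commute c g)
    (hc1 : c ≠ 1) (hcp : c ^ p = 1)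
    (hexp : ∀ g : G, (∀ x : G, Commute g x) → g ^ p = 1) :
    ∃ A₀ : Subgroup G, (∀ a ∈ A₀, ∀ g : G, Commute a g) ∧ (∀ k : ℕ, c ^ k ∈ A₀ → c ^ k = 1) ∧
      ∀ g : G, (∀ x : G, Commute g x) → ∃ k : ℕ, ∃ a ∈ A₀, g = c ^ k * a := by
  have hpp : p.Prime := Fact.out
  obtain ⟨A₀, -, hmax⟩ := Finite.exists_le_maximal
    (p := fun A : Subgroup G => A ≤ Subgroup.center G ∧ c ∉ A) (a := ⊥)
    ⟨bot_le, fun h => hc1 (Subgroup.mem_bot.mp h)⟩
  have hA : ∀ a ∈ A₀, ∀ g : G, Commute a g := fun a ha g =>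
    (Subgroup.mem_center_iff.mp (hmax.prop.1 ha) g).symm
  have hcard : ∀ u : G, u ≠ 1 → u ^ p = 1 → Nat.card (Subgroup.zpowers u) = p := fun u hu1 hup => by
    rw [Nat.card_zpowers, orderOf_eq_prime hup hu1]
  refine ⟨A₀, hA, ?_, ?_⟩
  · intro k hk
    by_contra hk1
    obtain ⟨j, hj⟩ := exists_pow_eq_of_card_prime (Subgroup.zpowers c) (hcard c hc1 hcp) (c ^ k)
      (Subgroup.pow_mem _ (Subgroup.mem_zpowers c) k) hk1 c (Subgroup.mem_zpowers c)
    exact hmax.prop.2 (hj ▸ Subgroup.pow_mem _ hk j)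
  · intro g hg
    by_cases hgA : g ∈ A₀
    · exact ⟨0, g, hgA, by simp⟩
    · have hg1 : g ≠ 1 := fun h => hgA (h ▸ A₀.one_mem)
      have hgz : Subgroup.zpowers g ≤ Subgroup.center G := by
        rw [Subgroup.zpowers_le]
        exact Subgroup.mem_center_iff.mpr (fun x => (hg x).symm.eq)
      have hcA : c ∈ A₀ ⊔ Subgroup.zpowers g := by
        by_contra hcon
        have h1 := hmax.le_of_ge (y := A₀ ⊔ Subgroup.zpowers g) ⟨sup_le hmax.prop.1 hgz, hcon⟩ le_sup_left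
        exact hgA (h1 (Subgroup.mem_sup_right (Subgroup.mem_zpowers g)))
      haveI : (Subgroup.zpowers g).Normal := normal_of_central _ (fun a ha x =>
        (Subgroup.mem_center_iff.mp (hgz ha) x).symm)
      obtain ⟨a, ha, z, hz, haz⟩ := Subgroup.mem_sup_of_normal_right.mp hcA
      have hz1 : z ≠ 1 := by
        rintro rfl
        rw [mul_one] at haz
        exact hmax.prop.2 (haz ▸ ha)
      obtain ⟨j, hj⟩ := exists_pow_eq_of_card_prime (Subgroup.zpowers g) (hcard g hg1 (hexp g hg)) z hz hz1 g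
        (Subgroup.mem_zpowers g)
      have hz' : z = c * a⁻¹ := by
        rw [← haz, ((hA a ha z).eq), mul_inv_cancel_right]
      refine ⟨j, (a⁻¹) ^ j, A₀.pow_mem (A₀.inv_mem ha) j, ?_⟩
      rw [← hj, hz', (hc a⁻¹).mul_pow]

theorem genExtra_E₀ [Finite G] {p : ℕ} [Fact p.Prime] (c t y : G) (hc : ∀ g : G, Commute c g) (hc1 : c ≠ 1)
    (hcp : c ^ p = 1) (hZ : ∀ x w : G, ∃ n : ℕ, x * w * x⁻¹ * w⁻¹ = c ^ n) (hty : t * y * t⁻¹ * y⁻¹ = c)
    (htp : t ^ p = 1) (hyp : y ^ p = 1) :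
    ∃ E₀ : Subgroup G, t ∈ E₀ ∧ y ∈ E₀ ∧ c ∈ E₀ ∧ Nat.card E₀ = p ^ 3 ∧
      ∀ g ∈ E₀, ∃ i j k : ℕ, g = t ^ i * (y ^ j * c ^ k) := by
  have hpp : p.Prime := Fact.out
  have hdvd : ∀ i : ℕ, c ^ i = 1 → p ∣ i := fun i hi => by
    have := orderOf_dvd_of_pow_eq_one hi
    rwa [orderOf_eq_prime hcp hc1] at this
  have ht1 : t ≠ 1 := by
    rintro rfl
    apply hc1
    rw [← hty]; group
  have hy1 : y ≠ 1 := by
    rintro rfl
    apply hc1
    rw [← hty]; group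
  haveI hcN : (Subgroup.zpowers c).Normal := normal_of_central _ (fun a ha g => by
    obtain ⟨n, rfl⟩ := Subgroup.mem_zpowers_iff.mp ha
    exact (hc g).zpow_left n)
  have hKc : Subgroup.zpowers y ⊔ Subgroup.zpowers c ≤ Subgroup.centralizer {y} := by
    refine sup_le ?_ ?_
    · rw [Subgroup.zpowers_le, Subgroup.mem_centralizer_iff]
      intro h hh
      rw [Set.mem_singleton_iff.mp hh]
    · rw [Subgroup.zpowers_le, Subgroup.mem_centralizer_iff]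
      intro h hh
      rw [Set.mem_singleton_iff.mp hh]
      exact ((hc y).eq).symm
  haveI hKN : (Subgroup.zpowers y ⊔ Subgroup.zpowers c).Normal := ⟨fun k hk g => by
    obtain ⟨n, hn⟩ := hZ g k
    have h1 : g * k * g⁻¹ = c ^ n * k := by rw [← hn]; group
    rw [h1]
    exact Subgroup.mul_mem _ (Subgroup.mem_sup_right (Subgroup.pow_mem _ (Subgroup.mem_zpowers c) n)) hk⟩
  have hnat : ∀ (u g : G), g ∈ Subgroup.zpowers u → ∃ n : ℕ, u ^ n = g := fun u g hg => by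
    have h1 := mem_powers_iff_mem_zpowers.mpr hg
    exact h1
  have hyc : Subgroup.zpowers y ⊓ Subgroup.zpowers c = ⊥ := by
    rw [eq_bot_iff]
    rintro g ⟨hgy, hgc⟩
    obtain ⟨j, rfl⟩ := hnat y g hgy
    obtain ⟨k, hk⟩ := hnat c _ hgc
    have h1 := conj_pow_twist_right t y c hc hty j
    rw [← hk] at h1
    have h2 : t * c ^ k * t⁻¹ = c ^ k := by
      rw [← ((hc t).pow_left k).eq, mul_inv_cancel_right]
    rw [h2] at h1
    have h3 : c ^ j = 1 := mul_right_cancel (b := c ^ k) (by rw [one_mul, ← h1])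
    obtain ⟨d, rfl⟩ := hdvd j h3
    rw [Subgroup.mem_bot, pow_mul, hyp, one_pow]
  have htK : Subgroup.zpowers t ⊓ (Subgroup.zpowers y ⊔ Subgroup.zpowers c) = ⊥ := by
    rw [eq_bot_iff]
    rintro g ⟨hgt, hgK⟩
    obtain ⟨i, rfl⟩ := hnat t g hgt
    have h1 := conj_pow_twist t y c hc hty i
    have h2 : y * t ^ i = t ^ i * y := Subgroup.mem_centralizer_iff.mp (hKc hgK) y rfl
    have h3 : c ^ i = 1 := by
      apply mul_right_cancel (b := y)
      rw [one_mul, ← h1, ← h2, mul_inv_cancel_right]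
    obtain ⟨d, rfl⟩ := hdvd i h3
    rw [Subgroup.mem_bot, pow_mul, htp, one_pow]
  have hcardz : ∀ u : G, u ≠ 1 → u ^ p = 1 → Nat.card (Subgroup.zpowers u) = p := fun u hu1 hup => by
    rw [Nat.card_zpowers, orderOf_eq_prime hup hu1]
  refine ⟨Subgroup.zpowers t ⊔ (Subgroup.zpowers y ⊔ Subgroup.zpowers c),
    Subgroup.mem_sup_left (Subgroup.mem_zpowers t),
    Subgroup.mem_sup_right (Subgroup.mem_sup_left (Subgroup.mem_zpowers y)),
    Subgroup.mem_sup_right (Subgroup.mem_sup_right (Subgroup.mem_zpowers c)), ?_, ?_⟩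
  · rw [card_sup_of_inf_eq_bot _ _ htK, card_sup_of_inf_eq_bot _ _ hyc, hcardz t ht1 htp, hcardz y hy1 hyp,
      hcardz c hc1 hcp]
    ring
  · intro g hg
    obtain ⟨a, ha, k, hk, rfl⟩ := Subgroup.mem_sup_of_normal_right.mp hg
    obtain ⟨b, hb, d, hd, rfl⟩ := Subgroup.mem_sup_of_normal_right.mp hk
    obtain ⟨i, rfl⟩ := hnat t a ha
    obtain ⟨j, rfl⟩ := hnat y b hb
    obtain ⟨k', rfl⟩ := hnat c d hd
    exact ⟨i, j, k', rfl⟩

theorem genExtra_inf (c t y : G) (hc : ∀ g : G, Commute c g) (hty : t * y * t⁻¹ * y⁻¹ = c)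
    {p : ℕ} (hdvd : ∀ i : ℕ, c ^ i = 1 → p ∣ i) (htp : t ^ p = 1) (hyp : y ^ p = 1)
    (i j k : ℕ) (hcen : ∀ g : G, Commute (t ^ i * (y ^ j * c ^ k)) g) :
    t ^ i * (y ^ j * c ^ k) = c ^ k := by
  have hu : Commute (y ^ j * c ^ k) y := ((Commute.refl y).pow_left j).mul_left ((hc y).pow_left k)
  have h1 : Commute (t ^ i) y := by
    have := (hcen y).mul_left hu.inv_left
    rwa [mul_inv_cancel_right] at this
  have h2 : c ^ i = 1 := by
    apply mul_right_cancel (b := y)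
    rw [one_mul, ← conj_pow_twist t y c hc hty i, h1.eq, mul_inv_cancel_right]
  obtain ⟨d, rfl⟩ := hdvd i h2
  have h3 : t ^ (p * d) = 1 := by rw [pow_mul, htp, one_pow]
  rw [h3, one_mul] at hcen ⊢
  have h4 : t * (y ^ j * c ^ k) * t⁻¹ = c ^ j * (y ^ j * c ^ k) := by
    calc t * (y ^ j * c ^ k) * t⁻¹ = (t * y ^ j * t⁻¹) * (t * c ^ k * t⁻¹) := by group
      _ = (c ^ j * y ^ j) * c ^ k := by
        rw [conj_pow_twist_right t y c hc hty j, ← ((hc t).pow_left k).eq, mul_inv_cancel_right]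
      _ = c ^ j * (y ^ j * c ^ k) := mul_assoc _ _ _
  have h5 : c ^ j = 1 := by
    apply mul_right_cancel (b := y ^ j * c ^ k)
    rw [one_mul, ← h4, ← (hcen t).eq, mul_inv_cancel_right]
  obtain ⟨e, rfl⟩ := hdvd j h5
  rw [pow_mul, hyp, one_pow, one_mul]

theorem genExtra_decomp [Finite G] {p : ℕ} [Fact p.Prime] (c t y : G) (hc : ∀ g : G, Commute c g) (hc1 : c ≠ 1)
    (hcp : c ^ p = 1) (hZ : ∀ x w : G, ∃ n : ℕ, x * w * x⁻¹ * w⁻¹ = c ^ n) (hty : t * y * t⁻¹ * y⁻¹ = c)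
    (htp : t ^ p = 1)
    (hMab : ∀ a b : G, Commute a y → Commute b y → Commute a b)
    (hMexp : ∀ a : G, Commute a y → a ^ p = 1) :
    ∃ E₀ A₀ : Subgroup G, t ∈ E₀ ∧ y ∈ E₀ ∧ Nat.card E₀ = p ^ 3 ∧ (∀ a ∈ A₀, ∀ g : G, Commute a g) ∧
      Nonempty (G ≃* E₀ × A₀) := by
  have hpp : p.Prime := Fact.out
  have hyp : y ^ p = 1 := hMexp y (Commute.refl y)
  obtain ⟨E₀, htE, hyE, hcE, hcard, hform⟩ := genExtra_E₀ c t y hc hc1 hcp hZ hty htp hyp
  obtain ⟨A₀, hA, hAc, hAdec⟩ := exists_complement_central c hc hc1 hcp (fun g hg => hMexp g (hg y))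
  have hdvd : ∀ i : ℕ, c ^ i = 1 → p ∣ i := fun i hi => by
    have := orderOf_dvd_of_pow_eq_one hi
    rwa [orderOf_eq_prime hcp hc1] at this
  have hinf : ∀ g, g ∈ E₀ → g ∈ A₀ → g = 1 := by
    intro g hgE hgA
    obtain ⟨i, j, k, rfl⟩ := hform g hgE
    have h1 := genExtra_inf c t y hc hty hdvd htp hyp i j k (hA _ hgA)
    rw [h1] at hgA ⊢
    exact hAc k hgA
  let f : ↥E₀ × ↥A₀ →* G := E₀.subtype.noncommCoprod A₀.subtype (fun e a => (hA a.1 a.2 e.1).symm)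
  have hf : ∀ x : ↥E₀ × ↥A₀, f x = (x.1 : G) * (x.2 : G) := fun x => rfl
  have hinj : Function.Injective f := by
    rw [injective_iff_map_eq_one]
    rintro ⟨e, a⟩ h
    rw [hf] at h
    have h1 : (e : G) = (a : G)⁻¹ := eq_inv_of_mul_eq_one_left h
    have h2 : (e : G) = 1 := hinf _ e.2 (h1 ▸ A₀.inv_mem a.2)
    have h3 : (a : G) = 1 := by
      have h4 : (e : G) * (a : G) = 1 := h
      rw [h2, one_mul] at h4; exact h4
    exact Prod.ext (Subtype.ext h2) (Subtype.ext h3)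
  have hsurj : Function.Surjective f := by
    intro x
    obtain ⟨n, hn⟩ := exists_pow_mul_commute c t y hc hZ hty x
    obtain ⟨a, ha⟩ := exists_central_mul_pow c t y hc hZ hty hMab _ hn
    obtain ⟨k, a₀, ha₀, hk⟩ := hAdec _ ha
    refine ⟨(⟨t ^ n * (y ^ a * c ^ k), ?_⟩, ⟨a₀, ha₀⟩), ?_⟩
    · exact E₀.mul_mem (E₀.pow_mem htE n) (E₀.mul_mem (E₀.pow_mem hyE a) (E₀.pow_mem hcE k))
    · rw [hf]
      show t ^ n * (y ^ a * c ^ k) * a₀ = x
      have h1 : x = t ^ n * (c ^ k * a₀ * y ^ a) := by rw [← hk]; group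
      have h2 : c ^ k * a₀ * y ^ a = y ^ a * (c ^ k * a₀) := by
        rw [← hk]; exact (ha (y ^ a)).eq
      calc t ^ n * (y ^ a * c ^ k) * a₀ = t ^ n * (y ^ a * (c ^ k * a₀)) := by simp only [mul_assoc]
        _ = t ^ n * (c ^ k * a₀ * y ^ a) := by rw [h2]
        _ = x := h1.symm
  exact ⟨E₀, A₀, htE, hyE, hcard, hA, ⟨(MulEquiv.ofBijective f ⟨hinj, hsurj⟩).symm⟩⟩

end

end Cfsg.Agent.Helper87
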