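import Mathlib
import Cfsg.Agent.Helper87.GenExtraC

set_option autoImplicit false

/-! The two decomposition statements `G ≅ D₈ × A` and `G ≅ p^{1+2}_+ × A` (helper87). -/

namespace Cfsg.Agent.Helper87

open scoped commutatorElement

section
universe u
variable {G : Type u} [Group G]

theorem genExtra_decomp_two [Finite G] (c t y : G) (hc : ∀ g : G, Commute c g) (hc1 : c ≠ 1)
    (hcp : c ^ 2 = 1) (hZ : ∀ x w : G, ∃ n : ℕ, x * w * x⁻¹ * w⁻¹ = c ^ n) (hty : t * y * t⁻¹ * y⁻¹ = c)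
    (htp : t ^ 2 = 1)
    (hMab : ∀ a b : G, Commute a y → Commute b y → Commute a b)
    (hMexp : ∀ a : G, Commute a y → a ^ 2 = 1) :
    ∃ (A : Type) (_ : CommGroup A), (∀ a : A, a ^ 2 = 1) ∧ Nonempty (G ≃* DihedralGroup 4 × A) := by
  haveI : Fact (Nat.Prime 2) := ⟨Nat.prime_two⟩
  obtain ⟨E₀, A₀, htE, hyE, hcard, hA, ⟨e⟩⟩ :=
    genExtra_decomp (p := 2) c t y hc hc1 hcp hZ hty htp hMab hMexp
  have hyp : y ^ 2 = 1 := hMexp y (Commute.refl y)
  have htinv : t⁻¹ = t := inv_eq_of_mul_eq_one_right (by rw [← pow_two]; exact htp)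
  have hyinv : y⁻¹ = y := inv_eq_of_mul_eq_one_right (by rw [← pow_two]; exact hyp)
  have hty2 : (t * y) ^ 2 = c := by
    rw [← hty, htinv, hyinv, pow_two]; simp only [mul_assoc]
  have hord : orderOf (t * y) = 4 := by
    have h1 : ¬ (t * y) ^ 2 ^ 1 = 1 := by rw [pow_one, hty2]; exact hc1
    have h2 : (t * y) ^ 2 ^ (1 + 1) = 1 := by
      show (t * y) ^ (2 * 2) = 1
      rw [pow_mul, hty2, hcp]
    exact orderOf_eq_prime_pow h1 h2
  have hD : Nonempty (↥E₀ ≃* DihedralGroup 4) := by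
    refine Helper73.nonempty_mulEquiv_dihedralGroup 4 (⟨t * y, E₀.mul_mem htE hyE⟩ : ↥E₀) ⟨t, htE⟩
      (by rw [hcard]; norm_num) ?_ ?_ ?_ ?_
    · rw [Subgroup.orderOf_mk]; exact hord
    · apply Subtype.ext
      show t * t = 1
      rw [← pow_two]; exact htp
    · apply Subtype.ext
      show t * (t * y) * t⁻¹ = (t * y)⁻¹
      rw [mul_inv_rev, htinv, hyinv, ← mul_assoc, ← pow_two, htp, one_mul]
    · intro h
      obtain ⟨n, hn⟩ := Subgroup.mem_zpowers_iff.mp h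
      have h1 : (t * y) ^ n = t := by
        have := congrArg Subtype.val hn
        simpa using this
      have h2 : Commute t (t * y) := by
        have h5 : Commute ((t * y) ^ n) (t * y) := (Commute.refl (t * y)).zpow_left n
        rwa [h1] at h5
      have h3 : t * y = y * t := by
        have h4 : t * (t * y) = t * y * t := h2.eq
        rw [mul_assoc] at h4
        exact mul_left_cancel h4
      apply hc1
      rw [← hty, h3]; group
  obtain ⟨d⟩ := hD
  let _ : CommGroup ↥A₀ := { (inferInstance : Group ↥A₀) with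
    mul_comm := fun a b => Subtype.ext (hA a.1 a.2 b.1).eq }
  have sA : Shrink.{0} ↥A₀ ≃* ↥A₀ := Shrink.mulEquiv
  refine ⟨Shrink.{0} ↥A₀, inferInstance, ?_, ⟨e.trans (MulEquiv.prodCongr d sA.symm)⟩⟩
  intro a
  apply sA.injective
  rw [map_pow, map_one]
  exact Subtype.ext (hMexp _ (hA _ (sA a).2 y))

theorem genExtra_decomp_odd [Finite G] {p : ℕ} [Fact p.Prime] (hp2 : p ≠ 2) (c t y : G)
    (hc : ∀ g : G, Commute c g) (hc1 : c ≠ 1)
    (hcp : c ^ p = 1) (hZ : ∀ x w : G, ∃ n : ℕ, x * w * x⁻¹ * w⁻¹ = c ^ n) (hty : t * y * t⁻¹ * y⁻¹ = c)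
    (htp : t ^ p = 1)
    (hMab : ∀ a b : G, Commute a y → Commute b y → Commute a b)
    (hMexp : ∀ a : G, Commute a y → a ^ p = 1) :
    ∃ (E : Type) (_ : Group E) (A : Type) (_ : CommGroup A), Cfsg.IsExtraspecial p E ∧ Nat.card E = p ^ 3 ∧
      Monoid.exponent E = p ∧ (∀ a : A, a ^ p = 1) ∧ Nonempty (G ≃* E × A) := by
  have hpp : p.Prime := Fact.out
  obtain ⟨E₀, A₀, htE, hyE, hcard, hA, ⟨e⟩⟩ := genExtra_decomp c t y hc hc1 hcp hZ hty htp hMab hMexp
  have hexp : ∀ x : G, x ^ p = 1 := by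
    intro x
    obtain ⟨n, hn⟩ := exists_pow_mul_commute c t y hc hZ hty x
    obtain ⟨j, hj⟩ := hZ ((t ^ n)⁻¹ * x) (t ^ n)
    have hcomm : ⁅(t ^ n)⁻¹ * x, t ^ n⁆ = c ^ j := by rw [commutatorElement_def]; exact hj
    have h1 := mul_pow_class_two (t ^ n) ((t ^ n)⁻¹ * x) (by rw [hcomm]; exact (hc _).pow_left j)
      (by rw [hcomm]; exact (hc _).pow_left j) p
    have h0 : (t ^ n) ^ p = 1 := by rw [← pow_mul, mul_comm, pow_mul, htp, one_pow]
    rw [mul_inv_cancel_left, hcomm, hMexp _ hn, h0, one_mul, one_mul, ← pow_mul] at h1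
    rw [h1]
    have h2 : p ∣ p.choose 2 := hpp.dvd_choose_self (by norm_num) (lt_of_le_of_ne hpp.two_le (Ne.symm hp2))
    obtain ⟨d, hd⟩ := h2
    rw [hd, mul_left_comm, pow_mul, hcp, one_pow]
  have sE : Shrink.{0} ↥E₀ ≃* ↥E₀ := Shrink.mulEquiv
  have hcardE : Nat.card (Shrink.{0} ↥E₀) = p ^ 3 := by rw [Nat.card_congr sE.toEquiv, hcard]
  have hE := isExtraspecial_of_card_cube (E := Shrink.{0} ↥E₀) (p := p) hcardE
    ⟨sE.symm ⟨t, htE⟩, sE.symm ⟨y, hyE⟩, fun h => by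
      have h1 := congrArg sE h
      simp only [map_mul, MulEquiv.apply_symm_apply] at h1
      have h2 : t * y = y * t := congrArg Subtype.val h1
      apply hc1
      rw [← hty, h2]; group⟩
    (fun g => sE.injective (by rw [map_pow, map_one]; exact Subtype.ext (hexp _)))
  let _ : CommGroup ↥A₀ := { (inferInstance : Group ↥A₀) with
    mul_comm := fun a b => Subtype.ext (hA a.1 a.2 b.1).eq }
  have sA : Shrink.{0} ↥A₀ ≃* ↥A₀ := Shrink.mulEquiv
  refine ⟨Shrink.{0} ↥E₀, inferInstance, Shrink.{0} ↥A₀, inferInstance, hE.1, hcardE, hE.2, ?_,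
    ⟨e.trans (MulEquiv.prodCongr sE.symm sA.symm)⟩⟩
  intro a
  apply sA.injective
  rw [map_pow, map_one]
  exact Subtype.ext (hexp _)

end

end Cfsg.Agent.Helper87
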