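import Mathlib
import Cfsg.Agent.Helper87.Closed
import Cfsg.Agent.Helper87.MetaEnd
import Cfsg.Agent.Helper84.FusionSat2

set_option autoImplicit false

/-! Generalized extraspecial strongly closed subgroups: centralizers of conjugates of central elements
(helper87). -/

namespace Cfsg.Agent.Helper87

open Cfsg Cfsg.FusionSystem

variable {Ω : Type*} [Group Ω] {S : Subgroup Ω}

theorem isFullyNormalized_of_normal [Finite S] (F : FusionSystem S) {Q : Subgroup Ω} (hQ : Q ≤ S)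
    (hN : ∀ g ∈ S, ∀ x ∈ Q, g * x * g⁻¹ ∈ Q) : F.IsFullyNormalized Q := by
  refine ⟨hQ, fun Q' _ => ?_⟩
  have h1 : normalizerIn S Q = S := by
    apply le_antisymm (normalizerIn_le_S S Q)
    intro g hg
    have h2 : g ∈ Subgroup.normalizer (Q : Set Ω) := by
      rw [Subgroup.mem_normalizer_iff]
      intro x
      constructor
      · exact hN g hg x
      · intro hx
        have := hN g⁻¹ (S.inv_mem hg) _ hx
        simpa [mul_assoc] using this
    exact ⟨hg, h2⟩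
  rw [h1]
  exact Subgroup.card_le_of_le (normalizerIn_le_S S Q')

theorem mem_inf_centralizer_singleton (P : Subgroup Ω) (y g : Ω) :
    g ∈ P ⊓ Subgroup.centralizer {y} ↔ g ∈ P ∧ g * y = y * g := by
  rw [Subgroup.mem_inf, Subgroup.mem_centralizer_iff]
  constructor
  · rintro ⟨h1, h2⟩; exact ⟨h1, (h2 y rfl).symm⟩
  · rintro ⟨h1, h2⟩; exact ⟨h1, fun h hh => by rw [Set.mem_singleton_iff.mp hh]; exact h2.symm⟩

/-- If a map of the system sends `z ∈ Z` to `y ∉ Z`, then `C_P(y)` is elementary abelian, and the inverse map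
extends to `C_P(y)`. -/
theorem genExtra_EA [Finite S] {p : ℕ} [Fact p.Prime] (hS : IsPGroup p S) (F : FusionSystem S)
    (hF : F.IsSaturated p) {P : Subgroup Ω} (hP : F.StronglyClosed P) {Z : Subgroup Ω} (hZP : Z ≤ P)
    (hZcard : Nat.card Z = p) (hZc : ∀ z ∈ Z, ∀ g ∈ P, z * g = g * z)
    (hcomm : ∀ x ∈ P, ∀ w ∈ P, x * w * x⁻¹ * w⁻¹ ∈ Z) (hpow : ∀ x ∈ P, x ^ p ∈ Z)
    (hZS : ∀ g ∈ S, ∀ z ∈ Z, g * z * g⁻¹ ∈ Z)
    {φ : Z →* Ω} (hφ : φ ∈ F.Hom Z) (z : Z) (y : Ω) (hyφ : φ z = y) (hy : y ∉ Z) :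
    ∃ θ ∈ F.Hom (P ⊓ Subgroup.centralizer {y}),
      (∀ h : y ∈ P ⊓ Subgroup.centralizer {y}, θ ⟨y, h⟩ = z) ∧
      (∀ a ∈ P, ∀ b ∈ P, a * y = y * a → b * y = y * b → a * b = b * a) ∧
      (∀ a ∈ P, a * y = y * a → a ^ p = 1) ∧
      (∀ u : ↥(P ⊓ Subgroup.centralizer {y}), (u : Ω) ∈ Z → θ u ∈ Z → (u : Ω) = 1) := by
  subst hyφ
  have hpp : p.Prime := Fact.out
  have hPS := hP.1
  have hZS' : Z ≤ S := hZP.trans hPS
  have hyP : φ z ∈ P := hP.2 Z hZP φ hφ z
  have hz1 : (z : Ω) ≠ 1 := by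
    intro h
    apply hy
    have : z = 1 := Subtype.ext h
    rw [this, map_one]; exact Z.one_mem
  have hgen : ∀ u ∈ Z, u ≠ 1 → ∀ v ∈ Z, ∃ k : ℕ, u ^ k = v := fun u hu hu1 v hv =>
    exists_pow_eq_of_card_prime Z hZcard u hu hu1 v hv
  have hfn : F.IsFullyNormalized Z := isFullyNormalized_of_normal F hZS' hZS
  have hrec : F.IsReceptive Z := (Helper84.saturated_fullyNormalized hS F hF hfn).2
  obtain ⟨ψ, hψ, hψr, hψφ, -⟩ := hom_inv F hφ rfl
  obtain ⟨ψ', hψ', hψext⟩ := hrec.2 φ.range ψ hψ hψr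
  have hmemM := mem_inf_centralizer_singleton P (φ z)
  have hrange : ∀ v ∈ φ.range, ∃ k : ℕ, v = φ z ^ k := by
    rintro _ ⟨u, rfl⟩
    obtain ⟨k, hk⟩ := hgen z z.2 hz1 u u.2
    refine ⟨k, ?_⟩
    have : u = z ^ k := Subtype.ext hk.symm
    rw [this, map_pow]
  have hMext : P ⊓ Subgroup.centralizer {φ z} ≤ extender S φ.range ψ := by
    intro g hg
    have hg' := (hmemM g).mp hg
    have hcent : ∀ v ∈ φ.range, g * v * g⁻¹ = v := by
      intro v hv
      obtain ⟨k, rfl⟩ := hrange v hv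
      have : Commute g (φ z ^ k) := (show Commute g (φ z) from hg'.2).pow_right k
      rw [this.eq, mul_inv_cancel_right]
    rw [mem_extender_iff]
    refine ⟨hPS hg'.1, ?_, 1, S.one_mem, fun x hx => ?_⟩
    · rw [Subgroup.mem_normalizer_iff]
      intro v
      constructor
      · intro hv; rw [hcent v hv]; exact hv
      · intro hv
        have h1 := hcent _ hv
        have h2 : g * v * g⁻¹ = v := by
          have := congrArg (fun w => g⁻¹ * w * g) h1
          simpa [mul_assoc] using this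
        rw [← h2]; exact hv
    · have : (⟨g * (x : Ω) * g⁻¹, hx⟩ : φ.range) = x := Subtype.ext (hcent x x.2)
      rw [this]; simp
  have hθ := hom_restrict F hψ' hMext
  have hθP : ∀ x : ↥(P ⊓ Subgroup.centralizer {φ z}), (ψ'.comp (Subgroup.inclusion hMext)) x ∈ P :=
    fun x => hP.2 _ inf_le_left _ hθ x
  have hyM : φ z ∈ P ⊓ Subgroup.centralizer {φ z} := (hmemM _).mpr ⟨hyP, rfl⟩
  have hθy : (ψ'.comp (Subgroup.inclusion hMext)) ⟨φ z, hyM⟩ = z := by
    have h1 : φ z ∈ φ.range := ⟨z, rfl⟩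
    have h2 := hψext (φ z) h1 (hMext hyM)
    have h3 := hψφ z h1
    show ψ' ⟨φ z, hMext hyM⟩ = z
    rw [h2]; exact h3
  have hZM : Z ≤ P ⊓ Subgroup.centralizer {φ z} := fun u hu => (hmemM u).mpr ⟨hZP hu, hZc u hu _ hyP⟩
  have hkey : ∀ u : ↥(P ⊓ Subgroup.centralizer {φ z}), (u : Ω) ∈ Z →
      (ψ'.comp (Subgroup.inclusion hMext)) u ∈ Z → (u : Ω) = 1 := by
    intro u hu hθu
    by_contra hu1
    have hθZ := hom_restrict F hθ hZM
    have hall : ∀ v : Z, ((ψ'.comp (Subgroup.inclusion hMext)).comp (Subgroup.inclusion hZM)) v ∈ Z := by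
      intro v
      obtain ⟨k, hk⟩ := hgen u hu hu1 v v.2
      have : Subgroup.inclusion hZM v = u ^ k := Subtype.ext hk.symm
      rw [MonoidHom.comp_apply, this, map_pow]
      exact Z.pow_mem hθu k
    have hr := range_eq_of_forall_mem F hθZ hall
    have hzr : (z : Ω) ∈ ((ψ'.comp (Subgroup.inclusion hMext)).comp (Subgroup.inclusion hZM)).range := by
      rw [hr]; exact z.2
    obtain ⟨z', hz'⟩ := hzr
    have h1 : (ψ'.comp (Subgroup.inclusion hMext)) (Subgroup.inclusion hZM z') =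
        (ψ'.comp (Subgroup.inclusion hMext)) ⟨φ z, hyM⟩ := by rw [hθy]; exact hz'
    have h2 := F.injective_of_mem hθ h1
    apply hy
    have h3 : (z' : Ω) = φ z := congrArg Subtype.val h2
    rw [← h3]; exact z'.2
  refine ⟨_, hθ, fun _ => hθy, ?_, ?_, hkey⟩
  · intro a ha b hb hay hby
    have haM : a ∈ P ⊓ Subgroup.centralizer {φ z} := (hmemM a).mpr ⟨ha, hay⟩
    have hbM : b ∈ P ⊓ Subgroup.centralizer {φ z} := (hmemM b).mpr ⟨hb, hby⟩
    let a' : ↥(P ⊓ Subgroup.centralizer {φ z}) := ⟨a, haM⟩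
    let b' : ↥(P ⊓ Subgroup.centralizer {φ z}) := ⟨b, hbM⟩
    have h1 := hkey (a' * b' * a'⁻¹ * b'⁻¹) (hcomm a ha b hb) (by
      rw [map_mul, map_mul, map_mul, map_inv, map_inv]
      exact hcomm _ (hθP _) _ (hθP _))
    have h2 : a * b * a⁻¹ * b⁻¹ = 1 := h1
    calc a * b = a * b * a⁻¹ * b⁻¹ * (b * a) := by group
      _ = b * a := by rw [h2, one_mul]
  · intro a ha hay
    have haM : a ∈ P ⊓ Subgroup.centralizer {φ z} := (hmemM a).mpr ⟨ha, hay⟩
    let a' : ↥(P ⊓ Subgroup.centralizer {φ z}) := ⟨a, haM⟩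
    have h1 := hkey (a' ^ p) (hpow a ha) (by
      rw [map_pow]; exact hpow _ (hθP _))
    exact h1

end Cfsg.Agent.Helper87
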