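import Mathlib
import Cfsg.Agent.Helper87.MetaEnd
import Cfsg.Agent.Helper87.Inner

set_option autoImplicit false

/-! Two transvections of an elementary abelian group generate an element inverting a plane and
commuting with the first transvection (helper87). -/

namespace Cfsg.Agent.Helper87

theorem exists_inverting_word {R : Type*} [Group R] {p : ℕ} [Fact p.Prime]
    (hab : ∀ a b : R, a * b = b * a) (hexp : ∀ a : R, a ^ p = 1)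
    (τ α : MulAut R) (c y : R) (hc1 : c ≠ 1)
    (hτ : ∀ m : R, ∃ n : ℕ, τ m = c ^ n * m) (hτc : τ c = c) (hτy : τ y = c * y)
    (hαy : ∃ i : ℕ, α y = c ^ i) (hαz : τ (α (α y)) ≠ α (α y))
    (H : Subgroup (MulAut R)) (hτH : τ ∈ H) (hαH : α ∈ H) :
    ∃ h ∈ H, h c = c⁻¹ ∧ h y = y⁻¹ ∧ ∀ m : R, h (τ m) = τ (h m) := by
  have hpp : p.Prime := Fact.out
  have hC : ∀ a b : R, Commute a b := hab
  obtain ⟨i, hi⟩ := hαy
  have hy1 : y ≠ 1 := by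
    rintro rfl
    rw [map_one, mul_one] at hτy
    exact hc1 hτy.symm
  have hz1 : c ^ i ≠ 1 := by
    rw [← hi]
    intro h
    exact hy1 ((MulEquiv.map_eq_one_iff α).mp h)
  have hcardz : ∀ u : R, u ≠ 1 → Nat.card (Subgroup.zpowers u) = p := fun u hu1 => by
    rw [Nat.card_zpowers, orderOf_eq_prime (hexp u) hu1]
  obtain ⟨i', hi'⟩ := exists_pow_eq_of_card_prime (Subgroup.zpowers c) (hcardz c hc1) (c ^ i)
    (Subgroup.pow_mem _ (Subgroup.mem_zpowers c) i) hz1 c (Subgroup.mem_zpowers c)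
  have hαinvc : α⁻¹ c = y ^ i' := by
    rw [← hi', ← hi, map_pow, MulAut.inv_apply_self]
  obtain ⟨n, hn⟩ := hτ (α c)
  have hcn1 : c ^ n ≠ 1 := by
    intro h
    rw [h, one_mul] at hn
    apply hαz
    rw [hi, map_pow, map_pow, hn]
  set τ₂ : MulAut R := α⁻¹ * τ * α with hτ₂
  have hτ₂y : τ₂ y = y := by
    rw [hτ₂, MulAut.mul_apply, MulAut.mul_apply, hi, map_pow, hτc, ← hi, MulAut.inv_apply_self]
  have hτ₂m : ∀ m : R, ∃ f : ℕ, τ₂ m = y ^ f * m := by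
    intro m
    obtain ⟨n₁, hn₁⟩ := hτ (α m)
    refine ⟨i' * n₁, ?_⟩
    rw [hτ₂, MulAut.mul_apply, MulAut.mul_apply, hn₁, map_mul, map_pow, hαinvc, MulAut.inv_apply_self,
      pow_mul]
  have hτ₂c : τ₂ c = y ^ (i' * n) * c := by
    rw [hτ₂, MulAut.mul_apply, MulAut.mul_apply, hn, map_mul, map_pow, hαinvc, MulAut.inv_apply_self,
      pow_mul]
  have hw1 : y ^ (i' * n) ≠ 1 := by
    intro h
    apply hcn1
    have h2 : α⁻¹ (c ^ n) = 1 := by rw [map_pow, hαinvc, ← pow_mul]; exact h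
    exact (MulEquiv.map_eq_one_iff (α⁻¹)).mp h2
  obtain ⟨k, hk⟩ := exists_pow_eq_of_card_prime (Subgroup.zpowers y) (hcardz y hy1) (y ^ (i' * n))
    (Subgroup.pow_mem _ (Subgroup.mem_zpowers y) _) hw1 y⁻¹ (Subgroup.inv_mem _ (Subgroup.mem_zpowers y))
  have hτ₂w : τ₂ (y ^ (i' * n)) = y ^ (i' * n) := by rw [map_pow, hτ₂y]
  have hbc : (τ₂ ^ k) c = c * y⁻¹ := by
    rw [aut_pow_apply_of_fix τ₂ c (y ^ (i' * n)) (by rw [hτ₂c]; exact hab _ _) hτ₂w k, hk]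
  have hby : (τ₂ ^ k) y = y := aut_pow_fix τ₂ y hτ₂y k
  obtain ⟨h1, h2⟩ := sl2_word_inverts τ (τ₂ ^ k) c y (hab c y) hτc hτy hby hbc
  have hτ₂H : τ₂ ∈ H := H.mul_mem (H.mul_mem (H.inv_mem hαH) hτH) hαH
  have hbH : τ₂ ^ k ∈ H := H.pow_mem hτ₂H k
  have hfix : ∀ d : R, τ d = d → τ₂ d = d → ((τ * τ₂ ^ k * τ) * (τ * τ₂ ^ k * τ)) d = d := by
    intro d hd1 hd2
    have hd3 : (τ₂ ^ k) d = d := aut_pow_fix τ₂ d hd2 k
    simp only [MulAut.mul_apply, hd1, hd3]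
  refine ⟨(τ * τ₂ ^ k * τ) * (τ * τ₂ ^ k * τ),
    H.mul_mem (H.mul_mem (H.mul_mem hτH hbH) hτH) (H.mul_mem (H.mul_mem hτH hbH) hτH), h1, h2, ?_⟩
  intro m
  generalize (τ * τ₂ ^ k * τ) * (τ * τ₂ ^ k * τ) = h at h1 h2 hfix ⊢
  obtain ⟨a, ha⟩ := hτ m
  have hm₁ : τ ((y ^ a)⁻¹ * m) = (y ^ a)⁻¹ * m := by
    rw [map_mul, map_inv, map_pow, hτy, ha, (hC c y).mul_pow, mul_inv_rev, mul_assoc, inv_mul_cancel_left]
  obtain ⟨f, hf⟩ := hτ₂m ((y ^ a)⁻¹ * m)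
  obtain ⟨e, he⟩ := exists_pow_eq_of_card_prime (Subgroup.zpowers y) (hcardz y hy1) (y ^ (i' * n))
    (Subgroup.pow_mem _ (Subgroup.mem_zpowers y) _) hw1 (y ^ f) (Subgroup.pow_mem _ (Subgroup.mem_zpowers y) _)
  have hd2 : τ₂ ((c ^ e)⁻¹ * ((y ^ a)⁻¹ * m)) = (c ^ e)⁻¹ * ((y ^ a)⁻¹ * m) := by
    rw [map_mul, map_inv, map_pow, hτ₂c, hf, (hC _ c).mul_pow, he, mul_inv_rev, mul_assoc, inv_mul_cancel_left]
  have hd1 : τ ((c ^ e)⁻¹ * ((y ^ a)⁻¹ * m)) = (c ^ e)⁻¹ * ((y ^ a)⁻¹ * m) := by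
    rw [map_mul, map_inv, map_pow, hτc, hm₁]
  have hd := hfix _ hd1 hd2
  have hm : m = y ^ a * (c ^ e * ((c ^ e)⁻¹ * ((y ^ a)⁻¹ * m))) := by group
  generalize (c ^ e)⁻¹ * ((y ^ a)⁻¹ * m) = d at hd hd1 hd2 hm
  rw [hm]
  simp only [map_mul, map_pow, map_inv, hτy, hτc, hd1, h1, h2, hd]
  rw [mul_inv_rev, hab y⁻¹ c⁻¹]

end Cfsg.Agent.Helper87
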