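import Mathlib
import Cfsg.Agent.Helper87.GenExtraF
import Cfsg.Agent.Helper87.GenExtraS
import Cfsg.Agent.Helper87.OddFix
import Cfsg.Agent.Helper87.Alperin

set_option autoImplicit false

/-! Generalized extraspecial strongly closed subgroups: the case where `C_P(y) = Ω₁(P)` (helper87). -/

namespace Cfsg.Agent.Helper87

open Cfsg Cfsg.FusionSystem
open scoped commutatorElement

variable {Ω : Type*} [Group Ω] {S : Subgroup Ω}

theorem genExtra_IIb [Finite S] {p : ℕ} [Fact p.Prime] (hp2 : p ≠ 2) (hS : IsPGroup p S) (F : FusionSystem S)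
    (hF : F.IsSaturated p) {P : Subgroup Ω} (hP : F.StronglyClosed P) {Z : Subgroup Ω} (hZP : Z ≤ P)
    (hZcard : Nat.card Z = p) (hZc : ∀ z ∈ Z, ∀ g ∈ P, z * g = g * z)
    (hcomm : ∀ x ∈ P, ∀ w ∈ P, x * w * x⁻¹ * w⁻¹ ∈ Z) (hpow : ∀ x ∈ P, x ^ p ∈ Z)
    (y : Ω) (hyP : y ∈ P)
    (hMab : ∀ a ∈ P, ∀ b ∈ P, a * y = y * a → b * y = y * b → a * b = b * a)
    (hMexp : ∀ a ∈ P, a * y = y * a → a ^ p = 1)
    (hIIb : ∀ u ∈ P, u ^ p = 1 → u * y = y * u)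
    (θ : ↥(P ⊓ Subgroup.centralizer {y}) →* Ω) (hθ : θ ∈ F.Hom (P ⊓ Subgroup.centralizer {y}))
    (z : Ω) (hzZ : z ∈ Z) (hθy : ∀ h, θ ⟨y, h⟩ = z)
    (hθz : ∀ h : z ∈ P ⊓ Subgroup.centralizer {y}, ∀ t ∈ P, t * θ ⟨z, h⟩ = θ ⟨z, h⟩ * t → t * y = y * t)
    (t : Ω) (htP : t ∈ P) (hty : t * y ≠ y * t) : False := by
  have hpp : p.Prime := Fact.out
  have hPS := hP.1
  have hmemM := mem_inf_centralizer_singleton P y
  have hMS : P ⊓ Subgroup.centralizer {y} ≤ S := inf_le_left.trans hPS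
  have hMP : P ⊓ Subgroup.centralizer {y} ≤ P := inf_le_left
  have hMiff : ∀ g : Ω, g ∈ P ⊓ Subgroup.centralizer {y} ↔ g ∈ P ∧ g ^ p = 1 := fun g =>
    ⟨fun hg => ⟨((hmemM g).mp hg).1, hMexp g ((hmemM g).mp hg).1 ((hmemM g).mp hg).2⟩,
     fun hg => (hmemM g).mpr ⟨hg.1, hIIb g hg.1 hg.2⟩⟩
  have hMnorm : ∀ g ∈ S, ∀ x ∈ P ⊓ Subgroup.centralizer {y}, g * x * g⁻¹ ∈ P ⊓ Subgroup.centralizer {y} := by
    intro g hg x hx
    rw [hMiff] at hx ⊢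
    refine ⟨stronglyClosed_conj_mem F hP hg hx.1, ?_⟩
    rw [conj_pow, hx.2]; simp
  have hfn : F.IsFullyNormalized (P ⊓ Subgroup.centralizer {y}) := isFullyNormalized_of_normal F hMS hMnorm
  have hrec : F.IsReceptive (P ⊓ Subgroup.centralizer {y}) :=
    (Helper84.saturated_fullyNormalized hS F hF hfn).2
  generalize hMdef : P ⊓ Subgroup.centralizer {y} = M at *
  have hZpow : ∀ u ∈ Z, u ^ p = 1 := by
    intro u hu
    have h1 : (⟨u, hu⟩ : Z) ^ Nat.card Z = 1 := pow_card_eq_one'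
    rw [hZcard] at h1
    exact congrArg Subtype.val h1
  have hθM : ∀ x : M, θ x ∈ M := by
    intro x
    rw [hMiff]
    refine ⟨hP.2 M hMP θ hθ x, ?_⟩
    rw [← map_pow]
    have : x ^ p = 1 := Subtype.ext ((hMiff x).mp x.2).2
    rw [this, map_one]
  have hθr := range_eq_of_forall_mem F hθ hθM
  let α : MulAut M := MulEquiv.ofBijective (θ.codRestrict M hθM)
    ⟨fun a b hab => F.injective_of_mem hθ (congrArg Subtype.val hab), fun b => by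
      have : (b : Ω) ∈ θ.range := by rw [hθr]; exact b.2
      obtain ⟨a, ha⟩ := this
      exact ⟨a, Subtype.ext ha⟩⟩
  have hαcoe : ∀ x : M, ((α x : M) : Ω) = θ x := fun x => rfl
  have hαF : α ∈ F.autGroup M := (mem_autGroup_iff F hMS α).mpr (hom_of_eq F hθ (fun x => rfl))
  have htS : t ∈ S := hPS htP
  have htN : t ∈ Subgroup.normalizer (M : Set Ω) := by
    rw [Subgroup.mem_normalizer_iff]
    intro x
    constructor
    · exact hMnorm t htS x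
    · intro hx
      have := hMnorm t⁻¹ (S.inv_mem htS) _ hx
      simpa [mul_assoc] using this
  have hτcoe : ∀ x : M, ((M.normalizerMonoidHom ⟨t, htN⟩ x : M) : Ω) = t * x * t⁻¹ :=
    fun x => Subgroup.normalizerMonoidHom_apply_apply_coe M ⟨t, htN⟩ x
  have hτF : M.normalizerMonoidHom ⟨t, htN⟩ ∈ F.autGroup M :=
    normalizerMonoidHom_mem_autGroup F hMS ⟨t, htN⟩ htS
  generalize M.normalizerMonoidHom ⟨t, htN⟩ = τ at hτcoe hτF
  have hcZ : t * y * t⁻¹ * y⁻¹ ∈ Z := hcomm t htP y hyP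
  have hc1 : t * y * t⁻¹ * y⁻¹ ≠ 1 := by
    intro h
    apply hty
    calc t * y = t * y * t⁻¹ * y⁻¹ * (y * t) := by group
      _ = y * t := by rw [h, one_mul]
  generalize hc : t * y * t⁻¹ * y⁻¹ = c at hcZ hc1
  have hZM : Z ≤ M := fun u hu => (hmemM u).mpr ⟨hZP hu, hZc u hu y hyP⟩
  have hcM : c ∈ M := hZM hcZ
  have hyM : y ∈ M := (hmemM y).mpr ⟨hyP, rfl⟩
  have hzM : z ∈ M := hZM hzZ
  have hgen : ∀ v ∈ Z, ∃ k : ℕ, c ^ k = v := fun v hv => exists_pow_eq_of_card_prime Z hZcard c hcZ hc1 v hv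
  have hαy : α ⟨y, hyM⟩ = ⟨z, hzM⟩ := Subtype.ext (by rw [hαcoe, hθy])
  obtain ⟨h, hhF, hhc, hhy, hhτ⟩ := exists_inverting_word (R := M) (p := p)
    (fun a b => Subtype.ext (hMab a ((hmemM a).mp a.2).1 b ((hmemM b).mp b.2).1 ((hmemM a).mp a.2).2
      ((hmemM b).mp b.2).2))
    (fun a => Subtype.ext ((hMiff a).mp a.2).2)
    τ α ⟨c, hcM⟩ ⟨y, hyM⟩ (fun h => hc1 (congrArg Subtype.val h))
    (fun m => by
      obtain ⟨n, hn⟩ := hgen (t * m * t⁻¹ * (m : Ω)⁻¹) (hcomm t htP m (hMP m.2))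
      refine ⟨n, Subtype.ext ?_⟩
      rw [hτcoe]
      show t * m * t⁻¹ = c ^ n * m
      rw [hn]; group)
    (Subtype.ext (by
      rw [hτcoe]
      show t * c * t⁻¹ = c
      rw [← hZc c hcZ t htP, mul_inv_cancel_right]))
    (Subtype.ext (by
      rw [hτcoe]
      show t * y * t⁻¹ = c * y
      rw [← hc]; group))
    (by
      obtain ⟨i, hi⟩ := hgen z hzZ
      exact ⟨i, by rw [hαy]; exact Subtype.ext hi.symm⟩)
    (by
      intro hcon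
      rw [hαy] at hcon
      have h1 := congrArg Subtype.val hcon
      rw [hτcoe, hαcoe] at h1
      apply hty
      apply hθz hzM t htP
      calc t * θ ⟨z, hzM⟩ = t * θ ⟨z, hzM⟩ * t⁻¹ * t := by group
        _ = θ ⟨z, hzM⟩ * t := by rw [h1])
    (F.autGroup M) hτF hαF
  -- extension of `h` to `t`
  have hh' : M.subtype.comp h.toMonoidHom ∈ F.Hom M := (mem_autGroup_iff F hMS h).mp hhF
  have htN' : t ∈ extender S M (M.subtype.comp h.toMonoidHom) := by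
    rw [mem_extender_iff]
    refine ⟨htS, htN, t, htS, fun x hx => ?_⟩
    show ((h ⟨t * x * t⁻¹, hx⟩ : M) : Ω) = t * ((h x : M) : Ω) * t⁻¹
    have e1 : (⟨t * (x : Ω) * t⁻¹, hx⟩ : M) = τ x := Subtype.ext (hτcoe x).symm
    rw [e1, hhτ, hτcoe]
  obtain ⟨ψ, hψ, hψext⟩ := hrec.2 M _ hh' (range_subtype_comp_aut M h)
  have hMN : M ≤ extender S M (M.subtype.comp h.toMonoidHom) := le_extender hMS _ (hom_mem F hh')
  generalize extender S M (M.subtype.comp h.toMonoidHom) = N at htN' ψ hψ hψext hMN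
  have hψM : ∀ (x : Ω) (hx : x ∈ M), ψ ⟨x, hMN hx⟩ = ((h ⟨x, hx⟩ : M) : Ω) := fun x hx => hψext x hx (hMN hx)
  have ht'P : ψ ⟨t, htN'⟩ ∈ P :=
    hP.2 (P ⊓ N) inf_le_left _ (hom_restrict F hψ (inf_le_right : P ⊓ N ≤ N)) ⟨t, ⟨htP, htN'⟩⟩
  -- (1) the `p`-th power of the image of `t`
  obtain ⟨j, hj⟩ := hgen (t ^ p) (hpow t htP)
  have e1 : (ψ ⟨t, htN'⟩) ^ p = (t ^ p)⁻¹ := by
    have a1 : (ψ ⟨t, htN'⟩) ^ p = ψ ⟨t ^ p, hMN (hZM (hpow t htP))⟩ := by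
      rw [← map_pow]; rfl
    have a2 : (⟨t ^ p, hZM (hpow t htP)⟩ : M) = (⟨c, hcM⟩ : M) ^ j := Subtype.ext hj.symm
    rw [a1, hψM _ (hZM (hpow t htP)), a2, map_pow, hhc]
    show (c⁻¹) ^ j = (t ^ p)⁻¹
    rw [inv_pow, hj]
  -- (2) conjugation of `y` by the image of `t`
  have hyinvM : y⁻¹ ∈ M := M.inv_mem hyM
  have e5 : ψ ⟨y⁻¹, hMN hyinvM⟩ = y := by
    rw [hψM _ hyinvM]
    have : (⟨y⁻¹, hyinvM⟩ : M) = (⟨y, hyM⟩ : M)⁻¹ := rfl
    rw [this, map_inv, hhy, inv_inv]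
  have hcyM : (c * y)⁻¹ ∈ M := M.inv_mem (M.mul_mem hcM hyM)
  have e6 : ψ ⟨(c * y)⁻¹, hMN hcyM⟩ = y * c := by
    rw [hψM _ hcyM]
    have : (⟨(c * y)⁻¹, hcyM⟩ : M) = ((⟨c, hcM⟩ : M) * ⟨y, hyM⟩)⁻¹ := rfl
    rw [this, map_inv, map_mul, hhc, hhy]
    show (c⁻¹ * y⁻¹)⁻¹ = y * c
    group
  have e7 : (⟨t, htN'⟩ : N) * ⟨y⁻¹, hMN hyinvM⟩ * (⟨t, htN'⟩ : N)⁻¹ = ⟨(c * y)⁻¹, hMN hcyM⟩ := by
    apply Subtype.ext
    show t * y⁻¹ * t⁻¹ = (c * y)⁻¹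
    rw [← hc]; group
  have e8 : ψ ⟨t, htN'⟩ * y * (ψ ⟨t, htN'⟩)⁻¹ = y * c := by
    have := congrArg ψ e7
    rw [map_mul, map_mul, map_inv, e5, e6] at this
    exact this
  generalize ψ ⟨t, htN'⟩ = t' at ht'P e1 e8
  have e9 : t' * y * t'⁻¹ = t * y * t⁻¹ := by
    rw [e8, ← hZc c hcZ y hyP, ← hc]; group
  have hm_y : (t⁻¹ * t') * y = y * (t⁻¹ * t') := by
    calc t⁻¹ * t' * y = t⁻¹ * (t' * y * t'⁻¹) * t' := by group
      _ = t⁻¹ * (t * y * t⁻¹) * t' := by rw [e9]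
      _ = y * (t⁻¹ * t') := by group
  have hmP : t⁻¹ * t' ∈ P := P.mul_mem (P.inv_mem htP) ht'P
  have hmp : (t⁻¹ * t') ^ p = 1 := hMexp _ hmP hm_y
  -- (4)
  have hcm : ⁅t⁻¹ * t', t⁆ ∈ Z := by
    rw [commutatorElement_def]; exact hcomm _ hmP t htP
  have e10 : t' ^ p = t ^ p := by
    have h1 := mul_pow_class_two t (t⁻¹ * t') (hZc _ hcm t htP) (hZc _ hcm _ hmP) p
    rw [mul_inv_cancel_left, hmp, mul_one] at h1
    rw [h1]
    obtain ⟨d, hd⟩ := hpp.dvd_choose_self (k := 2) (by norm_num) (lt_of_le_of_ne hpp.two_le (Ne.symm hp2))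
    rw [hd, pow_mul, hZpow _ hcm, one_pow, mul_one]
  -- (5)
  have e11 : (t ^ p) ^ 2 = 1 := by
    rw [pow_two]
    nth_rewrite 1 [← e10]
    rw [e1, inv_mul_cancel]
  have e12 : t ^ p = 1 := by
    have h1 : orderOf (t ^ p) ∣ 2 := orderOf_dvd_of_pow_eq_one e11
    have h2 : orderOf (t ^ p) ∣ p := orderOf_dvd_of_pow_eq_one (hZpow _ (hpow t htP))
    have h3 : orderOf (t ^ p) ∣ Nat.gcd 2 p := Nat.dvd_gcd h1 h2
    have h4 : Nat.gcd 2 p = 1 := (Nat.coprime_primes Nat.prime_two hpp).mpr (Ne.symm hp2)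
    rw [h4, Nat.dvd_one] at h3
    exact orderOf_eq_one_iff.mp h3
  exact hty (hIIb t htP e12)

end Cfsg.Agent.Helper87
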