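import Mathlib
import Cfsg.Agent.Helper87.GenExtraG
import Cfsg.Agent.Helper87.GenExtraD
import Cfsg.Agent.Helper76.PGroup

set_option autoImplicit false

/-! Generalized extraspecial strongly closed subgroups: weak closure of the commutator subgroup (helper87). -/

namespace Cfsg.Agent.Helper87

open Cfsg Cfsg.FusionSystem
open scoped commutatorElement

variable {Ω : Type*} [Group Ω] {S : Subgroup Ω}

theorem genExtra_weaklyClosed [Finite S] {p : ℕ} [Fact p.Prime] (hS : IsPGroup p S) (F : FusionSystem S)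
    (hF : F.IsSaturated p) {P : Subgroup Ω} (hP : F.StronglyClosed P) {Z : Subgroup Ω} (hZP : Z ≤ P)
    (hZcard : Nat.card Z = p) (hZc : ∀ z ∈ Z, ∀ g ∈ P, z * g = g * z)
    (hcomm : ∀ x ∈ P, ∀ w ∈ P, x * w * x⁻¹ * w⁻¹ ∈ Z) (hpow : ∀ x ∈ P, x ^ p ∈ Z)
    (hZS : ∀ g ∈ S, ∀ z ∈ Z, g * z * g⁻¹ ∈ Z)
    (hnab : ¬ ∀ a ∈ P, ∀ b ∈ P, a * b = b * a)
    (hnoIIa : ∀ c ∈ Z, c ≠ 1 → ∀ t ∈ P, ∀ y ∈ P, t * y * t⁻¹ * y⁻¹ = c → t ^ p = 1 →
      (∀ a ∈ P, ∀ b ∈ P, a * y = y * a → b * y = y * b → a * b = b * a) →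
      (∀ a ∈ P, a * y = y * a → a ^ p = 1) → False) :
    F.WeaklyClosed Z := by
  have hpp : p.Prime := Fact.out
  refine ⟨hZP.trans hP.1, fun φ hφ => ?_⟩
  apply range_eq_of_forall_mem F hφ
  intro z
  by_contra hy
  have hz1 : (z : Ω) ≠ 1 := by
    intro h
    apply hy
    have : z = 1 := Subtype.ext h
    rw [this, map_one]; exact Z.one_mem
  have hyP : φ z ∈ P := hP.2 Z hZP φ hφ z
  obtain ⟨y, hyφ⟩ : ∃ y, φ z = y := ⟨_, rfl⟩
  rw [hyφ] at hy hyP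
  obtain ⟨θ, hθ, hθy, hMab, hMexp, hkey⟩ :=
    genExtra_EA hS F hF hP hZP hZcard hZc hcomm hpow hZS hφ z y hyφ hy
  have hZpow : ∀ u ∈ Z, u ^ p = 1 := by
    intro u hu
    have h1 : (⟨u, hu⟩ : Z) ^ Nat.card Z = 1 := pow_card_eq_one'
    rw [hZcard] at h1
    exact congrArg Subtype.val h1
  have hex : ∃ t ∈ P, t * y ≠ y * t := by
    by_contra hcon
    push Not at hcon
    exact hnab (fun a ha b hb => hMab a ha b hb (hcon a ha) (hcon b hb))
  obtain ⟨t, htP, hty⟩ := hex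
  have hIIb : ∀ u ∈ P, u ^ p = 1 → u * y = y * u := by
    intro u hu hup
    by_contra hne
    refine hnoIIa (u * y * u⁻¹ * y⁻¹) (hcomm u hu y hyP) ?_ u hu y hyP rfl hup hMab hMexp
    intro h
    apply hne
    calc u * y = u * y * u⁻¹ * y⁻¹ * (y * u) := by group
      _ = y * u := by rw [h, one_mul]
  by_cases hp2 : p = 2
  · subst hp2
    have hcZ : t * y * t⁻¹ * y⁻¹ ∈ Z := hcomm t htP y hyP
    have hc1 : t * y * t⁻¹ * y⁻¹ ≠ 1 := by
      intro h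
      apply hty
      calc t * y = t * y * t⁻¹ * y⁻¹ * (y * t) := by group
        _ = y * t := by rw [h, one_mul]
    generalize hc : t * y * t⁻¹ * y⁻¹ = c at hcZ hc1
    have hy2 : y ^ 2 = 1 := hMexp y hyP rfl
    have hc2 : c ^ 2 = 1 := hZpow c hcZ
    have ht2 : t ^ 2 = c := by
      obtain ⟨k, hk⟩ := exists_pow_eq_of_card_prime Z hZcard c hcZ hc1 (t ^ 2) (hpow t htP)
      rcases Nat.even_or_odd' k with ⟨j, rfl | rfl⟩
      · exfalso
        apply hty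
        apply hIIb t htP
        rw [← hk, pow_mul, hc2, one_pow]
      · rw [← hk, pow_succ, pow_mul, hc2, one_pow, one_mul]
    have hu2 : (y * t) ^ 2 = 1 := by
      have e1 : (y * t) ^ 2 = y * (t * y * t⁻¹ * y⁻¹) * y * t ^ 2 := by rw [pow_two, pow_two]; group
      rw [e1, hc, ht2]
      calc y * c * y * c = y * (c * y) * c := by group
        _ = y * (y * c) * c := by rw [hZc c hcZ y hyP]
        _ = y ^ 2 * c ^ 2 := by rw [pow_two, pow_two]; simp only [mul_assoc]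
        _ = 1 := by rw [hy2, hc2, one_mul]
    have h3 := hIIb (y * t) (P.mul_mem hyP htP) hu2
    rw [mul_assoc] at h3
    exact hty (mul_left_cancel h3)
  · have hzM : (z : Ω) ∈ P ⊓ Subgroup.centralizer {y} :=
      (mem_inf_centralizer_singleton P y z).mpr ⟨hZP z.2, hZc z z.2 y hyP⟩
    refine genExtra_IIb hp2 hS F hF hP hZP hZcard hZc hcomm hpow y hyP hMab hMexp hIIb θ hθ z z.2 hθy ?_
      t htP hty
    intro hzM' t' ht'P hcomm'
    have hZM : Z ≤ P ⊓ Subgroup.centralizer {y} := fun u hu =>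
      (mem_inf_centralizer_singleton P y u).mpr ⟨hZP hu, hZc u hu y hyP⟩
    have hφ₂ := hom_restrict F hθ hZM
    have hy₂ : θ ⟨z, hzM'⟩ ∉ Z := fun h => hz1 (hkey ⟨z, hzM'⟩ z.2 h)
    obtain ⟨-, -, -, hMab₂, -, -⟩ :=
      genExtra_EA hS F hF hP hZP hZcard hZc hcomm hpow hZS hφ₂ z (θ ⟨z, hzM'⟩) rfl hy₂
    have hy₂P : θ ⟨z, hzM'⟩ ∈ P := hP.2 _ inf_le_left θ hθ _
    have hy₂p : θ ⟨z, hzM'⟩ ^ p = 1 := by
      rw [← map_pow]
      have : (⟨(z : Ω), hzM'⟩ : ↥(P ⊓ Subgroup.centralizer {y})) ^ p = 1 := Subtype.ext (hZpow z z.2)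
      rw [this, map_one]
    have h1 := hIIb _ hy₂P hy₂p
    exact hMab₂ t' ht'P y hyP hcomm' h1.symm

/-- The structure of a generalized extraspecial subgroup. -/
theorem genExtra_structure {p : ℕ} [Fact p.Prime] (P : Subgroup Ω) [Finite P] (hPp : IsPGroup p P)
    (hge : frattini ↥P = commutator ↥P ∧ Nat.card ↥(commutator ↥P) = p) :
    Nat.card ↥⁅P, P⁆ = p ∧ ⁅P, P⁆ ≤ P ∧ (∀ z ∈ ⁅P, P⁆, ∀ g ∈ P, z * g = g * z) ∧
      (∀ x ∈ P, x ^ p ∈ ⁅P, P⁆) ∧ ¬ (∀ a ∈ P, ∀ b ∈ P, a * b = b * a) := by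
  have hpp : p.Prime := Fact.out
  have hmap : (commutator ↥P).map P.subtype = ⁅P, P⁆ := by
    rw [commutator_def, Subgroup.map_commutator, ← MonoidHom.range_eq_map, Subgroup.range_subtype]
  have hcard : Nat.card ↥⁅P, P⁆ = p := by
    rw [← hmap, Subgroup.card_map_of_injective P.subtype_injective, hge.2]
  have hcen := Helper76.normal_card_prime_le_center hPp (commutator ↥P) hge.2
  refine ⟨hcard, ?_, ?_, ?_, ?_⟩
  · rw [← hmap]
    rintro _ ⟨x, _, rfl⟩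
    exact x.2
  · intro z hz g hg
    rw [← hmap] at hz
    obtain ⟨z', hz', rfl⟩ := hz
    have h1 := Subgroup.mem_center_iff.mp (hcen hz') ⟨g, hg⟩
    exact (congrArg Subtype.val h1).symm
  · intro x hx
    have h1 := Helper2.pow_mem_frattini_of_isPGroup hPp (⟨x, hx⟩ : ↥P)
    rw [hge.1] at h1
    rw [← hmap]
    exact ⟨_, h1, rfl⟩
  · intro hab
    have h1 : ⁅P, P⁆ = ⊥ := by
      rw [Subgroup.commutator_eq_bot_iff_le_centralizer]
      intro a ha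
      rw [Subgroup.mem_centralizer_iff]
      intro b hb
      exact hab b hb a ha
    rw [h1, Subgroup.card_bot] at hcard
    exact hpp.one_lt.ne hcard

theorem commutator_conj_mem (P : Subgroup Ω) (g : Ω) (hg : ∀ x ∈ P, g * x * g⁻¹ ∈ P)
    (z : Ω) (hz : z ∈ ⁅P, P⁆) : g * z * g⁻¹ ∈ ⁅P, P⁆ := by
  have h1 : P.map (MulAut.conj g).toMonoidHom ≤ P := by
    rintro _ ⟨x, hx, rfl⟩
    exact hg x hx
  have h2 : g * z * g⁻¹ ∈ (⁅P, P⁆).map (MulAut.conj g).toMonoidHom := ⟨z, hz, rfl⟩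
  rw [Subgroup.map_commutator] at h2
  exact Subgroup.commutator_mono h1 h1 h2

end Cfsg.Agent.Helper87
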