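import Cfsg.Agent.Helper62.P15Defs
import Cfsg.Agent.Helper47.Coprime
import Cfsg.Agent.Helper86.TateCore
import Cfsg.Agent.Helper64.MetaFrattini

/-!
CALL P15 (helper62), piece FR (helper87): the Frattini subgroup of the `q`-group `Q`.
-/

set_option autoImplicit false

namespace Cfsg.Agent.Helper87

open Cfsg Subgroup Cfsg.Agent.Helper62

universe u

section Amb

variable {G : Type u} [Group G] [Finite G]

/-- FR -/
theorem p15_frattini (M Q : Subgroup G) {q : ℕ} (hq : q.Prime) (hQq : IsPGroup q Q)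
    (hQn : M ≤ normalizer (Q : Set G)) :
    M ≤ normalizer ((p15Phi Q : Subgroup G) : Set G) ∧ p15Phi Q ≤ Q ∧
      ∀ a ∈ Q, ∀ b ∈ Q, a ^ q ∈ p15Phi Q ∧ a * b * a⁻¹ * b⁻¹ ∈ p15Phi Q := by
  have hfact : Fact q.Prime := ⟨hq⟩
  refine ⟨?_, ?_, ?_⟩
  · exact hQn.trans
      (Cfsg.Agent.Helper47.normalizer_le_normalizer_map_of_characteristic Q (frattini ↥Q))
  · intro x hx
    obtain ⟨y, -, rfl⟩ := mem_map.mp hx
    exact y.2
  · intro a ha b hb
    constructor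
    · have h1 := Cfsg.Agent.Helper64.pow_prime_mem_frattini_of_pgroup hQq (⟨a, ha⟩ : ↥Q)
      have h2 : Q.subtype ((⟨a, ha⟩ : ↥Q) ^ q) ∈ (frattini ↥Q).map Q.subtype :=
        mem_map_of_mem Q.subtype h1
      exact h2
    · have h1 : (⟨a, ha⟩ : ↥Q) * ⟨b, hb⟩ * (⟨a, ha⟩ : ↥Q)⁻¹ * (⟨b, hb⟩ : ↥Q)⁻¹ ∈
          commutator ↥Q := by
        rw [commutator_def]
        have h0 := Subgroup.commutator_mem_commutator (mem_top (⟨a, ha⟩ : ↥Q))
          (mem_top (⟨b, hb⟩ : ↥Q))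
        rwa [commutatorElement_def] at h0
      have h2 : Q.subtype ((⟨a, ha⟩ : ↥Q) * ⟨b, hb⟩ * (⟨a, ha⟩ : ↥Q)⁻¹ * (⟨b, hb⟩ : ↥Q)⁻¹) ∈
          (frattini ↥Q).map Q.subtype :=
        mem_map_of_mem Q.subtype (Cfsg.Agent.Helper86.commutator_le_frattini hQq h1)
      exact h2

end Amb

end Cfsg.Agent.Helper87
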