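import Mathlib

/-!
CALL S1906 (helper14), piece COMPL (helper87, double): Maschke for a `2`-group, `2 ≠ 0`.
-/

set_option autoImplicit false

namespace Cfsg.Agent.Helper87.S1906P

variable {F : Type*} [Field F] {V : Type*} [AddCommGroup V] [Module F V] {P : Type*} [Group P]

/-- COMPL (Maschke). -/
theorem s1906_compl [Finite P] (hP : IsPGroup 2 P) (h2 : (2 : F) ≠ 0)
    (ρ : Representation F P V) (L : Submodule F V) (hL : ∀ x : P, ∀ v ∈ L, ρ x v ∈ L) :
    ∃ W : Submodule F V, IsCompl L W ∧ ∀ x : P, ∀ v ∈ W, ρ x v ∈ W := by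
  classical
  have : Fintype P := Fintype.ofFinite P
  obtain ⟨k, hk⟩ := IsPGroup.iff_card.mp hP
  have hc : ((Fintype.card P : ℕ) : F) ≠ 0 := by
    rw [← Nat.card_eq_fintype_card, hk]
    push_cast
    exact pow_ne_zero k h2
  obtain ⟨f, hf⟩ := L.subtype.exists_leftInverse_of_injective
    (LinearMap.ker_eq_bot.mpr L.injective_subtype)
  have hfl : ∀ l : V, l ∈ L → ((f l : L) : V) = l := by
    intro l hl
    have h := LinearMap.congr_fun hf ⟨l, hl⟩
    simpa using congrArg Subtype.val h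
  let π' : V →ₗ[F] V :=
    ((Fintype.card P : F))⁻¹ • ∑ x : P, (ρ x) ∘ₗ L.subtype ∘ₗ f ∘ₗ (ρ x⁻¹)
  have hπ' : ∀ v, π' v = ((Fintype.card P : F))⁻¹ • ∑ x : P, ρ x ((f (ρ x⁻¹ v) : L) : V) := by
    intro v
    simp [π', LinearMap.sum_apply]
  have hinv : ∀ (x : P) (v : V), ρ x (ρ x⁻¹ v) = v := by
    intro x v
    simp
  have h1 : ∀ v, π' v ∈ L := by
    intro v
    rw [hπ']
    exact L.smul_mem _ (L.sum_mem (fun x _ => hL x _ (f (ρ x⁻¹ v)).2))
  have h2' : ∀ l ∈ L, π' l = l := by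
    intro l hl
    rw [hπ']
    have h : ∀ x : P, ρ x ((f (ρ x⁻¹ l) : L) : V) = l := by
      intro x
      rw [hfl _ (hL x⁻¹ l hl), hinv]
    simp only [h, Finset.sum_const, Finset.card_univ]
    rw [← Nat.cast_smul_eq_nsmul F, smul_smul, inv_mul_cancel₀ hc, one_smul]
  have h3 : ∀ (y : P) (v : V), π' (ρ y v) = ρ y (π' v) := by
    intro y v
    rw [hπ', hπ', map_smul, map_sum]
    congr 1
    rw [← Equiv.sum_comp (Equiv.mulLeft y)]
    apply Finset.sum_congr rfl
    intro x _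
    simp only [Equiv.coe_mulLeft]
    have e1 : ρ (y * x)⁻¹ (ρ y v) = ρ x⁻¹ v := by
      simp
    rw [e1, map_mul]
    rfl
  refine ⟨LinearMap.ker π', ?_, ?_⟩
  · constructor
    · rw [Submodule.disjoint_def]
      intro v hvL hvW
      rw [LinearMap.mem_ker] at hvW
      rw [← h2' v hvL, hvW]
    · rw [codisjoint_iff, eq_top_iff]
      intro v _
      have h : v = π' v + (v - π' v) := by abel
      rw [h]
      refine Submodule.add_mem_sup (h1 v) ?_
      rw [LinearMap.mem_ker, map_sub, h2' _ (h1 v), sub_self]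
  · intro x v hv
    rw [LinearMap.mem_ker] at hv ⊢
    rw [h3, hv, map_zero]

end Cfsg.Agent.Helper87.S1906P
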