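import Mathlib
import Cfsg.Prelude.Def_BaumannBlocks
import Cfsg.Agent.Helper5.SL2Sylow
import Cfsg.Agent.Helper39.NatSL2
import Cfsg.Agent.Helper87.Nat2Glue
import Cfsg.Agent.Helper87.S2788Defs
import Cfsg.Agent.Helper88.S2788EV
import Cfsg.Agent.Helper67.S2788OD

set_option autoImplicit false

namespace Cfsg.Agent.Helper87

open Cfsg.Agent
open scoped commutatorElement

/-- Row S2788 from the abstract pieces. -/
theorem s2788_main {G : Type*} [Group G] [Finite G] {p : ℕ} [Fact p.Prime] (V H : Subgroup G)
    (hV : Cfsg.IsElementaryAbelian p V) (hHV : H ≤ Subgroup.normalizer (V : Set G))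
    (hf : H ⊓ Subgroup.centralizer (V : Set G) = ⊥) {F : Type*} [Field F] [Fintype F] (n : ℕ)
    (hF : Fintype.card F = p ^ n)
    (hiso : Nonempty (↥H ≃* Matrix.SpecialLinearGroup (Fin 2) F)) (S : Sylow p ↥H)
    (T : Subgroup G) (hT : T = ((S : Subgroup ↥H).map H.subtype)) (A : Subgroup G) (hA : A ≤ T)
    (hA3 : 3 ≤ Nat.card A) (hquad : ⁅⁅V, A⁆, A⁆ = ⊥) :
    ∀ a ∈ A, a ≠ 1 →
      p ^ n ≤ ((V ⊓ Subgroup.centralizer ({a} : Set G))).relIndex V := by
  classical
  obtain ⟨e₀⟩ := hiso
  haveI : CharP F p := Helper39.charP_of_card n hF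
  obtain ⟨e, he⟩ := nat2_sylow_norm e₀ S
  letI instC : CommGroup ↥V :=
    { (inferInstance : Group ↥V) with mul_comm := fun a b => hV.1.is_comm.comm a b }
  letI instA : DistribMulAction (Matrix.SpecialLinearGroup (Fin 2) F) (Additive ↥V) :=
    nat2Action H V hHV e
  have hsmul : ∀ (g : Matrix.SpecialLinearGroup (Fin 2) F) (m : Additive ↥V),
      g • m = Additive.ofMul (nat2Conj H V hHV (e.symm g) (Additive.toMul m)) := fun _ _ => rfl
  have hact : ∀ (g : ↥H) (v : ↥V),
      e g • Additive.ofMul v = Additive.ofMul (nat2Conj H V hHV g v) := by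
    intro g v
    rw [hsmul, MulEquiv.symm_apply_apply]
    rfl
  have hp' : ∀ m : Additive ↥V, p • m = 0 := by
    intro m
    have h1 : (Additive.toMul m : ↥V) ^ p = 1 := by
      apply Subtype.ext
      rw [Subgroup.coe_pow]
      exact hV.2 _ (Additive.toMul m).2
    exact h1
  have hfaith : ∀ g : Matrix.SpecialLinearGroup (Fin 2) F,
      (∀ m : Additive ↥V, g • m = m) → g = 1 := by
    intro g hg
    have h1 : ((e.symm g : ↥H) : G) ∈ H ⊓ Subgroup.centralizer (V : Set G) := by
      refine Subgroup.mem_inf.2 ⟨(e.symm g).2, ?_⟩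
      rw [Subgroup.mem_centralizer_iff]
      intro v hv
      have h2 := hg (Additive.ofMul ⟨v, hv⟩)
      rw [hsmul] at h2
      have h3 : nat2Conj H V hHV (e.symm g) ⟨v, hv⟩ = ⟨v, hv⟩ := Additive.ofMul.injective h2
      have h4 : ((e.symm g : ↥H) : G) * v * ((e.symm g : ↥H) : G)⁻¹ = v :=
        congrArg Subtype.val h3
      calc v * ((e.symm g : ↥H) : G)
          = ((e.symm g : ↥H) : G) * v * ((e.symm g : ↥H) : G)⁻¹ * ((e.symm g : ↥H) : G) := by
            rw [h4]
        _ = ((e.symm g : ↥H) : G) * v := by group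
    rw [hf, Subgroup.mem_bot] at h1
    have h5 : e.symm g = 1 := Subtype.ext h1
    have h6 := congrArg e h5
    rwa [MulEquiv.apply_symm_apply, map_one] at h6
  -- the order of the Sylow subgroup
  have hcardS : Nat.card (S : Subgroup ↥H) = Fintype.card F := by
    rw [Sylow.card_eq_multiplicity, Nat.card_congr e.toEquiv]
    have := Helper5.card_sylow_SL2 p (Helper5.sylowUSL (F := F) p)
    rw [Sylow.card_eq_multiplicity] at this
    exact this
  have hcardT : Nat.card T = p ^ n := by
    rw [hT, Subgroup.card_map_of_injective (Subgroup.subtype_injective H), hcardS, hF]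
  intro a haA ha1
  obtain ⟨a', ha'S, ha'⟩ : a ∈ (S : Subgroup ↥H).map H.subtype := hT ▸ hA haA
  obtain ⟨s, hs⟩ := (he a').1 ha'S
  have ha'a : (a' : G) = a := ha'
  have hs0 : s ≠ 0 := by
    rintro rfl
    rw [Helper5.uSL_zero] at hs
    have h1 : a' = 1 := by
      have := congrArg e.symm hs
      rwa [MulEquiv.symm_apply_apply, map_one] at this
    apply ha1
    rw [← ha'a, h1]
    rfl
  have hesymm : e.symm (Helper5.uSL s) = a' := by
    rw [← hs, MulEquiv.symm_apply_apply]
  -- quadratic action of the single element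
  have hquad' : ∀ m : Additive ↥V,
      Helper5.uSL s • (Helper5.uSL s • m - m) = Helper5.uSL s • m - m := by
    intro m
    set v : ↥V := Additive.toMul m with hv
    have hc : ⁅(a : G), (v : G)⁆ ∈ ⁅V, A⁆ := by
      rw [Subgroup.commutator_comm]
      exact Subgroup.commutator_mem_commutator haA v.2
    have hcb : ⁅⁅(a : G), (v : G)⁆, (a : G)⁆ = 1 := by
      have : ⁅⁅(a : G), (v : G)⁆, (a : G)⁆ ∈ ⁅⁅V, A⁆, A⁆ :=
        Subgroup.commutator_mem_commutator hc haA
      rw [hquad, Subgroup.mem_bot] at this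
      exact this
    have hcomm : (a : G) * ⁅(a : G), (v : G)⁆ * (a : G)⁻¹ = ⁅(a : G), (v : G)⁆ := by
      rw [commutatorElement_def] at hcb
      have h3 : ⁅(a : G), (v : G)⁆ * (a : G) = (a : G) * ⁅(a : G), (v : G)⁆ := by
        have := congrArg (fun z => z * ((a : G) * ⁅(a : G), (v : G)⁆)) hcb
        simp only [one_mul] at this
        rw [← this]; group
      rw [← h3]; group
    have hdiff : Helper5.uSL s • m - m =
        Additive.ofMul (nat2Conj H V hHV a' v / v) := by
      rw [hsmul, hesymm]; rfl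
    rw [hdiff, hsmul, hesymm]
    apply congrArg Additive.ofMul
    apply Subtype.ext
    rw [toMul_ofMul, nat2Conj_coe, Subgroup.coe_div, nat2Conj_coe, div_eq_mul_inv, ha'a]
    rw [commutatorElement_def] at hcomm
    exact hcomm
  -- the abstract bound
  have hbound : p ^ n * Nat.card {m : Additive ↥V // Helper5.uSL s • m = m} ≤
      Nat.card (Additive ↥V) := by
    by_cases hp2 : p = 2
    · subst hp2
      have hn : 2 ≤ n := by
        by_contra hn
        have hn1 : n ≤ 1 := by omega
        have h1 : Nat.card A ≤ Nat.card T := Subgroup.card_le_of_le hA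
        have h2 : (2 : ℕ) ^ n ≤ 2 ^ 1 := Nat.pow_le_pow_right (by norm_num) hn1
        rw [hcardT] at h1
        omega
      exact Helper88.s2788_even n hn hF hp' hfaith s hs0
    · exact Helper67.s2788_odd hp2 n hF hp' hfaith s hs0 hquad'
  -- translation to the relative index
  have hcardM : Nat.card (Additive ↥V) = Nat.card ↥V := Nat.card_congr Additive.toMul
  have hfix : Nat.card {m : Additive ↥V // Helper5.uSL s • m = m} =
      Nat.card ↥((V ⊓ Subgroup.centralizer ({a} : Set G)).subgroupOf V) := by
    apply Nat.card_congr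
    refine Equiv.subtypeEquiv Additive.toMul ?_
    intro m
    rw [hsmul, hesymm, Subgroup.mem_subgroupOf]
    constructor
    · intro h
      have h3 : nat2Conj H V hHV a' (Additive.toMul m) = Additive.toMul m :=
        Additive.ofMul.injective h
      have h4 : (a' : G) * (Additive.toMul m : ↥V) * (a' : G)⁻¹ = (Additive.toMul m : ↥V) :=
        congrArg Subtype.val h3
      refine Subgroup.mem_inf.2 ⟨(Additive.toMul m).2, ?_⟩
      rw [Subgroup.mem_centralizer_iff]
      intro x hx
      rw [Set.mem_singleton_iff] at hx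
      subst hx
      rw [← ha'a]
      calc (a' : G) * ((Additive.toMul m : ↥V) : G)
          = (a' : G) * (Additive.toMul m : ↥V) * (a' : G)⁻¹ * (a' : G) := by group
        _ = ((Additive.toMul m : ↥V) : G) * (a' : G) := by rw [h4]
    · intro h0
      have h := (Subgroup.mem_inf.1 h0).2
      rw [Subgroup.mem_centralizer_iff] at h
      have h1 := h a (Set.mem_singleton a)
      have h2 : nat2Conj H V hHV a' (Additive.toMul m) = Additive.toMul m := by
        apply Subtype.ext
        rw [nat2Conj_coe, ha'a, h1]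
        group
      exact congrArg Additive.ofMul h2
  rw [hcardM, hfix] at hbound
  have hidx : ((V ⊓ Subgroup.centralizer ({a} : Set G))).relIndex V *
      Nat.card ↥((V ⊓ Subgroup.centralizer ({a} : Set G)).subgroupOf V) = Nat.card ↥V := by
    rw [Subgroup.relIndex, mul_comm]
    exact Subgroup.card_mul_index _
  have hpos : 0 < Nat.card ↥((V ⊓ Subgroup.centralizer ({a} : Set G)).subgroupOf V) :=
    Nat.card_pos
  rw [← hidx] at hbound
  exact Nat.le_of_mul_le_mul_right hbound hpos

end Cfsg.Agent.Helper87
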