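import Mathlib
import Cfsg.Agent.Helper87.SFDefs
import Cfsg.Agent.Helper66.SFOUTODD
import Cfsg.Agent.Helper60.SzAut
import Cfsg.Agent.S2126

/-!
# CALL S2752 piece INNERS (helper87): involutions normalizing a Suzuki subgroup act as inner
automorphisms (`|Out(Sz(q))| = 2m+1` is odd, S2126).
-/

set_option autoImplicit false

namespace Cfsg.Agent.Helper87

open Cfsg.Agent.Helper87.SF

/-- INNERS -/
theorem sf_inner_s {G : Type*} [Group G] [Finite G] (K : Subgroup G)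
    {F : Type} [Field F] [Fintype F] (m : ℕ) (hm : 1 ≤ m)
    (hF : Fintype.card F = 2 ^ (2 * m + 1))
    (e : ↥K ≃* ↥(Cfsg.Lie.Sz F (2 ^ (m + 1)))) (a : G) (haa : a * a = 1)
    (haK : ∀ k ∈ K, a * k * a⁻¹ ∈ K) : ∃ s ∈ K, ∀ k ∈ K, a * k * a⁻¹ = s * k * s⁻¹ := by
  have h1 : Nat.card (Cfsg.Out ↥K) = 2 * m + 1 := by
    rw [Cfsg.Agent.Helper60.card_out_congr e]
    exact Cfsg.Agent.S2126.result hm hF
  have hodd : Odd (Nat.card (Cfsg.Out ↥K)) := by
    rw [h1]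
    exact ⟨m, rfl⟩
  exact Cfsg.Agent.Helper66.sf_inner_of_odd_out K hodd a haa haK

end Cfsg.Agent.Helper87
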